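import Cfsg.Agent.H6.ChZ1
import Cfsg.Agent.H6.ChS2

set_option autoImplicit false

/-! Centralizers of the highest root elements in characteristic two. -/

namespace CfsgH6
namespace Chv

open Cfsg.Lie

/-- `r` is dominant with Cartan vector `e_k`, all listed roots commute with `r` modulo 2, and `Js` lists the negatives of the
fundamental roots other than the `k`-th -/
def centChk (D : ChevalleyDatum) (N r k : ℕ) (Js : List ℕ) : Bool :=
  decide (N ≤ r ∧ r < D.nroots ∧ k < D.rank) && ((List.range D.rank).all fun i => decide (D.cartan i r = if i = k then 1 else 0)) &&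
  ((List.range' N N).all fun s => (D.commTerms r s).all fun c => decide (c.2.1 % 2 = 0)) &&
  (Js.all fun s => (D.commTerms r s).all fun c => decide (c.2.1 % 2 = 0)) &&
  (Js.all fun s => decide (s < N ∧ s ≠ D.neg r)) &&
  ((List.range D.rank).all fun j => decide (j = k) || Js.contains (D.neg (D.simple j))) &&
  (Js.all fun s => (List.range D.rank).any fun j => decide (j ≠ k ∧ s = D.neg (D.simple j)))

theorem ckE6 : centChk chevE6 36 71 1 [15, 29, 32, 34, 35] = true := by decide +kernel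
theorem ckE7 : centChk chevE7 63 125 0 [47, 52, 56, 59, 61, 62] = true := by decide +kernel
theorem ckE8 : centChk chevE8 120 239 7 [77, 98, 104, 109, 113, 116, 118] = true := by decide +kernel
theorem ckF4l : centChk chevF4 24 47 3 [14, 20, 22] = true := by decide +kernel
theorem ckF4s : centChk chevF4 24 44 0 [20, 22, 23] = true := by decide +kernel
theorem ckG2 : centChk chevG2 6 11 1 [4] = true := by decide +kernel

theorem centChk_spec {D : ChevalleyDatum} {N r k : ℕ} {Js : List ℕ} (h : centChk D N r k Js = true) :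
    (N ≤ r ∧ r < D.nroots ∧ k < D.rank) ∧ (∀ i < D.rank, D.cartan i r = if i = k then 1 else 0) ∧
    (∀ s, N ≤ s → s < N + N → ∀ c ∈ D.commTerms r s, c.2.1 % 2 = 0) ∧ (∀ s ∈ Js, ∀ c ∈ D.commTerms r s, c.2.1 % 2 = 0) ∧
    (∀ s ∈ Js, s < N ∧ s ≠ D.neg r) ∧ (∀ j < D.rank, j ≠ k → D.neg (D.simple j) ∈ Js) ∧
    (∀ s ∈ Js, ∃ j < D.rank, j ≠ k ∧ s = D.neg (D.simple j)) := by
  unfold centChk at h
  simp only [Bool.and_eq_true, decide_eq_true_eq, List.all_eq_true, List.mem_range, Bool.or_eq_true, List.any_eq_true,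
    List.contains_iff_mem, List.mem_range'_1] at h
  obtain ⟨⟨⟨⟨⟨⟨h1, h2⟩, h3⟩, h4⟩, h5⟩, h6⟩, h7⟩ := h
  refine ⟨h1, h2, fun s hs hs' => h3 s ⟨hs, hs'⟩, h4, h5, ?_, ?_⟩
  · intro j hj hjk
    rcases h6 j hj with h | h
    · exact absurd h hjk
    · exact h
  · intro s hs
    obtain ⟨j, hj, hjk, hs⟩ := h7 s hs
    exact ⟨j, hj, hjk, hs⟩

variable {D : ChevalleyDatum} (g : Good D) {F : Type*} [Field F]

namespace Good

theorem even_comm [CharP F 2] {r s : ℕ} (hr : r < D.nroots) (hs : s < D.nroots) (h1 : s ≠ r) (h2 : s ≠ D.neg r)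
    (h : ∀ c ∈ D.commTerms r s, c.2.1 % 2 = 0) (t u : F) : g.xg s u * g.xg r t = g.xg r t * g.xg s u := by
  rw [g.xg_comm hr hs h1 h2]
  have h3 : ((D.commTerms r s).map fun c => g.xg c.1 (((c.2.1 : ℤ) : F) * (-t) ^ c.2.2.1 * u ^ c.2.2.2)).prod = 1 := by
    apply List.prod_eq_one
    intro x hx
    obtain ⟨c, hc, rfl⟩ := List.mem_map.1 hx
    have h4 : ((c.2.1 : ℤ) : F) = 0 := by
      rw [CharP.intCast_eq_zero_iff F 2]
      have := h c hc
      omega
    rw [h4, zero_mul, zero_mul, g.xg_zero]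
  rw [h3, mul_one]

/-- stabilizer of a dominant root -/
theorem stab_nl {r k : ℕ} (hr : r < D.nroots) (hc : ∀ i < D.rank, D.cartan i r = if i = k then 1 else 0)
    {K : Subgroup (GL D.Idx F)} (hK : ∀ j < D.rank, j ≠ k → g.nn j ∈ K) :
    ∀ m, ∀ L : List ℕ, g.cnt L = m → (∀ i ∈ L, i < D.rank) → g.wl L r = r → ∃ h ∈ g.HH F, ∃ n ∈ K, g.nl F L = h * n := by
  intro m
  induction m with
  | zero =>
    intro L hm hL _
    refine ⟨g.nl F L, g.nl_mem_HH hL ?_, 1, Subgroup.one_mem _, (mul_one _).symm⟩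
    intro s hs hp
    by_contra hlt
    push Not at hlt
    unfold cnt at hm
    rw [Finset.card_eq_zero, Finset.filter_eq_empty_iff] at hm
    exact hm (Finset.mem_Ico.2 ⟨hp, hs⟩) hlt
  | succ m ih =>
    intro L hm hL hw
    by_cases hall : ∀ i < D.rank, g.N ≤ g.wl L (D.simple i)
    · exact ⟨g.nl F L, g.nl_mem_HH hL (g.wl_all_pos hL hall), 1, Subgroup.one_mem _, (mul_one _).symm⟩
    · push Not at hall
      obtain ⟨j, hj, hlt⟩ := hall
      have hsj := g.simple_lt j hj
      -- `j` stabilizes `r`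
      have hle : D.cartan j r ≤ 0 := by
        have h1 : g.pr (g.wl L (D.simple j)) (g.wl L r) = g.pr (D.simple j) r := by
          have : ∀ L : List ℕ, (∀ i ∈ L, i < D.rank) → g.pr (g.wl L (D.simple j)) (g.wl L r) = g.pr (D.simple j) r := by
            intro L
            induction L with
            | nil => intro _; rfl
            | cons i L ihL =>
              intro hL
              have hL' : ∀ i ∈ L, i < D.rank := fun x hx => hL x (List.mem_cons_of_mem _ hx)
              show g.pr (g.w i (g.wl L (D.simple j))) (g.w i (g.wl L r)) = _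
              rw [g.pr_w (hL i List.mem_cons_self) (g.wl_lt hL' hsj) (g.wl_lt hL' hr), ihL hL']
          exact this L hL
        rw [hw, g.pr_simple hj] at h1
        rw [← h1]
        unfold pr
        apply Finset.sum_nonpos
        intro i hi
        have hi' := Finset.mem_range.1 hi
        have h2 : cor D (g.wl L (D.simple j)) i ≤ 0 := by
          have h3 := g.cor_nonneg (D.neg (g.wl L (D.simple j))) (g.neg_lt (g.wl_lt hL hsj)) (g.N_le_neg (g.wl_lt hL hsj) hlt) i hi'
          rw [g.cor_neg _ (g.wl_lt hL hsj) i hi'] at h3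
          linarith
        have h4 : 0 ≤ D.cartan i r := by rw [hc i hi']; split_ifs <;> norm_num
        exact mul_nonpos_of_nonpos_of_nonneg h2 h4
      have hjk : j ≠ k := by
        rintro rfl
        rw [hc j hj, if_pos rfl] at hle
        norm_num at hle
      have hwr : g.w j r = r := by
        apply g.coef_inj (g.w_lt j hj r hr) hr
        intro i hi
        rw [g.coef_w j hj r hr i hi, hc j hj, if_neg hjk]
        split_ifs <;> ring
      have hL2 : ∀ i ∈ L ++ [j], i < D.rank := by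
        intro i hi
        rcases List.mem_append.1 hi with h | h
        · exact hL i h
        · rw [List.mem_singleton.1 h]; exact hj
      have h5 : g.N ≤ g.wl (L ++ [j]) (D.simple j) := by
        rw [g.wl_append]
        show g.N ≤ g.wl L (g.w j (D.simple j))
        rw [g.w_simple j hj, g.wl_neg hL hsj]
        exact g.N_le_neg (g.wl_lt hL hsj) hlt
      have h6 := g.cnt_append hL2 hj h5
      have h7 : g.cnt (L ++ [j] ++ [j]) = g.cnt L := by
        unfold cnt
        congr 1
        apply Finset.filter_congr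
        intro s hs
        have hs' := (Finset.mem_Ico.1 hs).2
        rw [g.wl_append, g.wl_append]
        show g.wl L (g.w j (g.w j s)) < g.N ↔ _
        rw [g.w_w j hj s hs']
      obtain ⟨h, hh, n, hn, he⟩ := ih (L ++ [j]) (by omega) hL2 (by
        rw [g.wl_append]
        show g.wl L (g.w j r) = r
        rw [hwr, hw])
      refine ⟨h, hh, n * (g.nn j)⁻¹, Subgroup.mul_mem _ hn (Subgroup.inv_mem _ (hK j hj hjk)), ?_⟩
      rw [g.nl_append, g.nl_cons, g.nl_nil, mul_one] at he
      rw [← mul_assoc, ← he]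
      group

theorem cent_root [CharP F 2] {r k : ℕ} {Js : List ℕ} (h : centChk D g.N r k Js = true) :
    g.GG F ⊓ Subgroup.centralizer {g.xg r 1} = g.XS F (fun s => g.N ≤ s ∨ s ∈ Js) := by
  obtain ⟨⟨hNr, hr, hk⟩, hc, h1, h2, h3, h4, h5⟩ := centChk_spec h
  set K := g.XS F (fun s => g.N ≤ s ∨ s ∈ Js) with hK
  have hKC : K ≤ g.GG F ⊓ Subgroup.centralizer {g.xg r 1} := by
    rw [hK]
    unfold XS
    rw [Subgroup.closure_le]
    rintro _ ⟨s, t, hs, hs', rfl⟩
    refine ⟨g.xg_mem_GG _ _, ?_⟩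
    refine Subgroup.mem_centralizer_singleton_iff.2 ?_
    by_cases hsr : s = r
    · subst hsr
      rw [g.xg_add hr, g.xg_add hr, add_comm]
    · have hN := g.hN
      rcases hs with hs | hs
      · exact g.even_comm hr hs' hsr (by
          have := g.neg_lt_N hr hNr
          omega) (h1 s hs (by omega)) 1 t
      · exact g.even_comm hr hs' hsr (h3 s hs).2 (h2 s hs) 1 t
  have hUK : g.UU F ≤ K := g.XS_mono (fun s _ hs => Or.inl hs)
  have hngK : ∀ j < D.rank, j ≠ k → ∀ t : F, g.ng (D.simple j) t ∈ K := by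
    intro j hj hjk t
    unfold ng
    exact Subgroup.mul_mem _ (Subgroup.mul_mem _ (g.xg_mem (S := fun s => g.N ≤ s ∨ s ∈ Js) (Or.inl (g.simple_ge j hj)) _)
      (g.xg_mem (S := fun s => g.N ≤ s ∨ s ∈ Js) (Or.inr (h4 j hj hjk)) _))
      (g.xg_mem (S := fun s => g.N ≤ s ∨ s ∈ Js) (Or.inl (g.simple_ge j hj)) _)
  apply le_antisymm
  · rintro x ⟨hx, hxc⟩
    replace hxc := Subgroup.mem_centralizer_singleton_iff.1 hxc
    obtain ⟨b, hb, L, hL, u, hu, rfl⟩ := g.bruhat hx
    obtain ⟨y, hy, h0, hh0, rfl⟩ := g.mem_BB.1 hb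
    have huU : u ∈ g.UU F := g.XS_mono (fun s _ hs => hs.1) hu
    have hcomm : ∀ z ∈ K, z * g.xg r 1 = g.xg r 1 * z := by
      intro z hz
      exact Subgroup.mem_centralizer_singleton_iff.1 (hKC hz).2
    have hyc := hcomm y (hUK hy)
    have huc := hcomm u (hUK huU)
    obtain ⟨c, hc0⟩ := hh0
    -- the middle part
    have h6 : h0 * g.nl F L * g.xg r 1 * (g.nl F L)⁻¹ * h0⁻¹ = g.xg r 1 := by
      have h7 : h0 * g.nl F L * g.xg r 1 = g.xg r 1 * (h0 * g.nl F L) := by
        have h8 : y * (h0 * g.nl F L * g.xg r 1) * u = y * (g.xg r 1 * (h0 * g.nl F L)) * u := by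
          calc y * (h0 * g.nl F L * g.xg r 1) * u = y * h0 * g.nl F L * (g.xg r 1 * u) := by group
            _ = y * h0 * g.nl F L * u * g.xg r 1 := by rw [← huc]; group
            _ = g.xg r 1 * (y * h0 * g.nl F L * u) := hxc
            _ = (g.xg r 1 * y) * (h0 * g.nl F L) * u := by group
            _ = y * (g.xg r 1 * (h0 * g.nl F L)) * u := by rw [← hyc]; group
        exact mul_left_cancel (mul_right_cancel h8)
      rw [h7]; group
    have hwr : g.wl L r = r := by
      have h7 : h0 * (g.nl F L * g.xg r 1 * (g.nl F L)⁻¹) * h0⁻¹ = g.xg r 1 := Eq.trans (by group) h6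
      rw [g.nl_x hL hr, hc0, g.hc_x c (g.wl_lt hL hr)] at h7
      exact (g.xg_inj hr (g.wl_lt hL hr) one_ne_zero h7.symm).symm
    obtain ⟨h', hh', n', hn', he⟩ := g.stab_nl (F := F) hr hc (K := K) (fun j hj hjk => by rw [g.nn_eq_ng]; exact hngK j hj hjk 1)
      _ L rfl hL hwr
    have hn'c := hcomm n' hn'
    rw [he] at h6
    have hH : h0 * h' ∈ g.HH F := Subgroup.mul_mem _ ⟨c, hc0⟩ hh'
    have h8 : (h0 * h') * g.xg r 1 * (h0 * h')⁻¹ = g.xg r 1 := by
      have h9 : h0 * (h' * n') * g.xg r 1 * (h' * n')⁻¹ * h0⁻¹ = h0 * h' * (n' * g.xg r 1) * n'⁻¹ * h'⁻¹ * h0⁻¹ := by group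
      rw [h9, hn'c] at h6
      exact Eq.trans (by group) h6
    have hHK : h0 * h' ∈ K := by
      obtain ⟨d, hd⟩ := hH
      rw [hd] at h8 ⊢
      rw [g.hc_x d hr, mul_one] at h8
      have h9 := xg_inj' g hr h8
      have h10 : d k = 1 := by
        apply Units.ext
        rw [Units.val_one, ← h9]
        congr 1
        symm
        unfold hcf
        rw [Finset.prod_eq_single k]
        · rw [hc k hk, if_pos rfl, zpow_one]
        · intro i hi hik
          rw [hc i (Finset.mem_range.1 hi), if_neg hik, zpow_zero]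
        · intro h; exact absurd (Finset.mem_range.2 hk) h
      rw [g.hc_eq_prod]
      apply Subgroup.list_prod_mem
      intro z hz
      obtain ⟨i, hi, rfl⟩ := List.mem_map.1 hz
      have hi' := List.mem_range.1 hi
      by_cases hik : i = k
      · subst hik
        rw [h10, g.hD_one]; exact Subgroup.one_mem _
      · rw [← g.ng_mul_eq_hD (g.simple_lt i hi')]
        exact Subgroup.mul_mem _ (hngK i hi' hik _) (hngK i hi' hik _)
    rw [he]
    have h11 : y * h0 * (h' * n') * u = y * (h0 * h') * n' * u := by group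
    rw [h11]
    exact Subgroup.mul_mem _ (Subgroup.mul_mem _ (Subgroup.mul_mem _ (hUK hy) hHK) hn') (hUK huU)
  · exact hKC

theorem XS_sup (S T : ℕ → Prop) : g.XS F (fun s => S s ∨ T s) = g.XS F S ⊔ g.XS F T := by
  apply le_antisymm
  · unfold XS
    rw [Subgroup.closure_le]
    rintro _ ⟨s, t, hs, hs', rfl⟩
    rcases hs with hs | hs
    · exact Subgroup.mem_sup_left (g.xg_mem hs t)
    · exact Subgroup.mem_sup_right (g.xg_mem hs t)
  · exact sup_le (g.XS_mono fun _ _ h => Or.inl h) (g.XS_mono fun _ _ h => Or.inr h)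

theorem XS_root {r : ℕ} (hr : r < D.nroots) : g.XS F (fun s => s = r) = D.rootSubgroup F r := by
  apply le_antisymm
  · unfold XS
    rw [Subgroup.closure_le]
    rintro _ ⟨s, t, rfl, hs', rfl⟩
    exact (g.mem_root hs' _).2 ⟨t, rfl⟩
  · intro x hx
    obtain ⟨t, rfl⟩ := (g.mem_root hr x).1 hx
    exact g.xg_mem (S := fun s => s = r) rfl t

theorem cent_root' [CharP F 2] {r k : ℕ} {Js : List ℕ} (h : centChk D g.N r k Js = true) {t : GL D.Idx F}
    (ht : (t : Matrix D.Idx D.Idx F) = D.x F r 1) : D.group F ⊓ Subgroup.centralizer {t} = g.XS F (fun s => g.N ≤ s ∨ s ∈ Js) := by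
  rw [(g.eq_xg_iff r 1 t).1 ht, ← g.cent_root h, g.group_eq]

theorem stmt_2209 [CharP F 2] {r k : ℕ} {Js : List ℕ} (h : centChk D g.N r k Js = true) {t : GL D.Idx F}
    (ht : (t : Matrix D.Idx D.Idx F) = D.x F r 1) : D.group F ⊓ Subgroup.centralizer {t} =
      D.posUnipotent F ⊔ Subgroup.closure {x : GL D.Idx F | ∃ s ∈ Js, ∃ c : F, (x : Matrix D.Idx D.Idx F) = D.x F s c} := by
  rw [g.cent_root' h ht, g.XS_sup, g.posU_eq]
  congr 1
  obtain ⟨⟨hNr, hr, hk⟩, hc, h1, h2, h3, h4, h5⟩ := centChk_spec h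
  have hN := g.hN
  apply le_antisymm
  · unfold XS
    rw [Subgroup.closure_le]
    rintro _ ⟨s, t, hs, hs', rfl⟩
    exact Subgroup.subset_closure ⟨s, hs, t, (g.x_eq_xg s t).symm⟩
  · rw [Subgroup.closure_le]
    rintro x ⟨s, hs, c, hx⟩
    rw [(g.eq_xg_iff s c x).1 hx]
    exact g.xg_mem (S := fun s => s ∈ Js) hs c

end Good

end Chv
end CfsgH6
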