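import Cfsg.Agent.H6.ChZ2

set_option autoImplicit false

/-! Pairs of conjugates of the highest root subgroup. -/

namespace CfsgH6
namespace Chv

open Cfsg.Lie

def pairChk (D : ChevalleyDatum) (w : ℕ → ℕ → ℕ) (N r : ℕ) (lg : ℕ → Bool) : Bool :=
  decide (N ≤ r ∧ r < D.nroots) && lg r &&
  ((List.range D.rank).all fun i => (List.range D.nroots).all fun s => !(lg s) || lg (w i s)) &&
  ((List.range' N N).all fun s => decide (D.commTerms r s = [])) &&
  ((List.range N).all fun s => !(lg s) || decide (s = D.neg r) || match D.commTerms r s with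
    | [] => true
    | [c] => decide (D.commTerms r c.1 = [] ∧ D.commTerms s c.1 = [] ∧ c.1 ≠ r ∧ c.1 ≠ D.neg r ∧ c.1 ≠ s ∧ c.1 ≠ D.neg s)
    | _ => false)

theorem pcG2 : pairChk chevG2 encG2.w 6 11 (fun s => [0, 1, 5, 6, 10, 11].contains s) = true := by decide +kernel
theorem pcD4' : pairChk chevD4 encD4.w 12 23 (fun _ => true) = true := by decide +kernel
theorem pcE6' : pairChk chevE6 encE6.w 36 71 (fun _ => true) = true := by decide +kernel
theorem pcE7' : pairChk chevE7 encE7.w 63 125 (fun _ => true) = true := by decide +kernel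
theorem pcE8' : pairChk chevE8 encE8.w 120 239 (fun _ => true) = true := by decide +kernel

theorem pairChk_spec {D : ChevalleyDatum} {w : ℕ → ℕ → ℕ} {N r : ℕ} {lg : ℕ → Bool} (h : pairChk D w N r lg = true) :
    (N ≤ r ∧ r < D.nroots) ∧ lg r = true ∧ (∀ i < D.rank, ∀ s < D.nroots, lg s = true → lg (w i s) = true) ∧
    (∀ s, N ≤ s → s < N + N → D.commTerms r s = []) ∧
    (∀ s < N, lg s = true → s ≠ D.neg r → D.commTerms r s = [] ∨ ∃ c, D.commTerms r s = [c] ∧
      D.commTerms r c.1 = [] ∧ D.commTerms s c.1 = [] ∧ c.1 ≠ r ∧ c.1 ≠ D.neg r ∧ c.1 ≠ s ∧ c.1 ≠ D.neg s) := by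
  unfold pairChk at h
  simp only [Bool.and_eq_true, decide_eq_true_eq, List.all_eq_true, List.mem_range, Bool.or_eq_true, List.mem_range'_1,
    Bool.not_eq_true'] at h
  obtain ⟨⟨⟨⟨h1, h2⟩, h3⟩, h4⟩, h5⟩ := h
  refine ⟨h1, h2, ?_, fun s hs hs' => h4 s ⟨hs, hs'⟩, ?_⟩
  · intro i hi s hs hl
    rcases h3 i hi s hs with h | h
    · rw [hl] at h; exact absurd h (by simp)
    · exact h
  · intro s hs hl hne
    rcases h5 s hs with (h | h) | h
    · rw [hl] at h; exact absurd h (by simp)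
    · exact absurd h hne
    · split at h
      · exact Or.inl ‹_›
      · rename_i c hc
        exact Or.inr ⟨c, hc, by simpa using h⟩
      · exact absurd h (by simp)

variable {D : ChevalleyDatum} (g : Good D) {F : Type*} [Field F]

namespace Good

theorem comm_nil' {r s : ℕ} (hr : r < D.nroots) (hs : s < D.nroots) (h1 : s ≠ r) (h2 : s ≠ D.neg r)
    (h : D.commTerms r s = []) (t u : F) : g.xg s u * g.xg r t = g.xg r t * g.xg s u := by
  rw [g.xg_comm hr hs h1 h2, h, List.map_nil, List.prod_nil, mul_one]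

include g in
theorem root_pgroup {p : ℕ} [Fact p.Prime] [CharP F p] {r : ℕ} (hr : r < D.nroots) : IsPGroup p (D.rootSubgroup F r) := by
  rintro ⟨x, hx⟩
  obtain ⟨t, rfl⟩ := (g.mem_root hr x).1 hx
  refine ⟨1, Subtype.ext ?_⟩
  rw [pow_one]
  show (g.xg r t) ^ p = 1
  have h1 : ∀ k : ℕ, (g.xg r t) ^ k = g.xg r ((k : F) * t) := by
    intro k
    induction k with
    | zero => rw [pow_zero, Nat.cast_zero, zero_mul, g.xg_zero]
    | succ k ih => rw [pow_succ, ih, g.xg_add hr]; congr 1; push_cast; ring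
  rw [h1, CharP.cast_eq_zero, zero_mul, g.xg_zero]

theorem wl_lg {lg : ℕ → Bool} (h : ∀ i < D.rank, ∀ s < D.nroots, lg s = true → lg (g.w i s) = true) :
    ∀ L : List ℕ, (∀ i ∈ L, i < D.rank) → ∀ s < D.nroots, lg s = true → lg (g.wl L s) = true := by
  intro L
  induction L with
  | nil => intro _ s _ hl; exact hl
  | cons i L ih =>
    intro hL s hs hl
    have hL' : ∀ i ∈ L, i < D.rank := fun x hx => hL x (List.mem_cons_of_mem _ hx)
    exact h i (hL i List.mem_cons_self) _ (g.wl_lt hL' hs) (ih hL' s hs hl)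

include g in
theorem pair_pgroup {p : ℕ} [Fact p.Prime] [CharP F p] {r s : ℕ} (hr : r < D.nroots) (hs : s < D.nroots) (h1 : s ≠ r)
    (h2 : s ≠ D.neg r)
    (h : D.commTerms r s = [] ∨ ∃ c, D.commTerms r s = [c] ∧
      D.commTerms r c.1 = [] ∧ D.commTerms s c.1 = [] ∧ c.1 ≠ r ∧ c.1 ≠ D.neg r ∧ c.1 ≠ s ∧ c.1 ≠ D.neg s) :
    IsPGroup p ↥(D.rootSubgroup F r ⊔ D.rootSubgroup F s) := by
  have hR := g.root_pgroup (F := F) (p := p) hr
  have hS := g.root_pgroup (F := F) (p := p) hs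
  rcases h with h | ⟨c, hc, h3, h4, h5, h6, h7, h8⟩
  · refine IsPGroup.to_sup_of_normal_right' hR hS ?_
    intro x hx
    obtain ⟨t, rfl⟩ := (g.mem_root hr x).1 hx
    rw [Subgroup.mem_normalizer_iff]
    intro y
    constructor
    · intro hy
      obtain ⟨u, rfl⟩ := (g.mem_root hs y).1 hy
      rw [← g.comm_nil' hr hs h1 h2 h, mul_assoc, mul_inv_cancel, mul_one]
      exact hy
    · intro hy
      obtain ⟨u, hu⟩ := (g.mem_root hs _).1 hy
      have h9 : y = (g.xg r t)⁻¹ * g.xg s u * g.xg r t := by rw [← hu]; group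
      rw [h9, mul_assoc, g.comm_nil' hr hs h1 h2 h, inv_mul_cancel_left]
      exact (g.mem_root hs _).2 ⟨u, rfl⟩
  · have hv : c.1 < D.nroots := (g.commTerms_mem hr hs (by rw [hc]; simp)).1
    have hV := g.root_pgroup (F := F) (p := p) hv
    have hSV : IsPGroup p ↥(D.rootSubgroup F s ⊔ D.rootSubgroup F c.1) := by
      refine IsPGroup.to_sup_of_normal_right' hS hV ?_
      intro x hx
      obtain ⟨t, rfl⟩ := (g.mem_root hs x).1 hx
      rw [Subgroup.mem_normalizer_iff]
      intro y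
      constructor
      · intro hy
        obtain ⟨u, rfl⟩ := (g.mem_root hv y).1 hy
        rw [← g.comm_nil' hs hv h7 h8 h4, mul_assoc, mul_inv_cancel, mul_one]
        exact hy
      · intro hy
        obtain ⟨u, hu⟩ := (g.mem_root hv _).1 hy
        have h9 : y = (g.xg s t)⁻¹ * g.xg c.1 u * g.xg s t := by rw [← hu]; group
        rw [h9, mul_assoc, g.comm_nil' hs hv h7 h8 h4, inv_mul_cancel_left]
        exact (g.mem_root hv _).2 ⟨u, rfl⟩
    have hRSV : IsPGroup p ↥(D.rootSubgroup F r ⊔ (D.rootSubgroup F s ⊔ D.rootSubgroup F c.1)) := by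
      refine IsPGroup.to_sup_of_normal_right' hR hSV ?_
      have key : ∀ t : F, ∀ y ∈ D.rootSubgroup F s ⊔ D.rootSubgroup F c.1, g.xg r t * y * (g.xg r t)⁻¹ ∈
          D.rootSubgroup F s ⊔ D.rootSubgroup F c.1 := by
        intro t y hy
        have h10 : D.rootSubgroup F s ⊔ D.rootSubgroup F c.1 ≤
            (D.rootSubgroup F s ⊔ D.rootSubgroup F c.1).comap (MulAut.conj (g.xg r t)).toMonoidHom := by
          apply sup_le
          · intro z hz
            obtain ⟨u, rfl⟩ := (g.mem_root hs z).1 hz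
            show g.xg r t * g.xg s u * (g.xg r t)⁻¹ ∈ D.rootSubgroup F s ⊔ D.rootSubgroup F c.1
            have h11 := g.xg_comm hr hs h1 h2 t u
            rw [hc, List.map_singleton, List.prod_singleton] at h11
            have h12 : g.xg r t * g.xg s u * (g.xg r t)⁻¹ = g.xg s u * (g.xg r t * (g.xg c.1 (((c.2.1 : ℤ) : F) * (-t) ^ c.2.2.1 * u ^ c.2.2.2))⁻¹ * (g.xg r t)⁻¹) := by
              have h13 : g.xg r t * g.xg s u = g.xg s u * g.xg r t * (g.xg c.1 (((c.2.1 : ℤ) : F) * (-t) ^ c.2.2.1 * u ^ c.2.2.2))⁻¹ := by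
                rw [h11]; group
              rw [h13]; group
            rw [h12, g.xg_inv hv, ← g.comm_nil' hr hv h5 h6 h3]
            refine Subgroup.mul_mem _ (Subgroup.mem_sup_left ((g.mem_root hs _).2 ⟨_, rfl⟩)) ?_
            rw [mul_assoc, mul_inv_cancel, mul_one]
            exact Subgroup.mem_sup_right ((g.mem_root hv _).2 ⟨_, rfl⟩)
          · intro z hz
            obtain ⟨u, rfl⟩ := (g.mem_root hv z).1 hz
            show g.xg r t * g.xg c.1 u * (g.xg r t)⁻¹ ∈ D.rootSubgroup F s ⊔ D.rootSubgroup F c.1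
            rw [← g.comm_nil' hr hv h5 h6 h3, mul_assoc, mul_inv_cancel, mul_one]
            exact Subgroup.mem_sup_right hz
        exact h10 hy
      intro x hx
      obtain ⟨t, rfl⟩ := (g.mem_root hr x).1 hx
      rw [Subgroup.mem_normalizer_iff]
      intro y
      constructor
      · exact key t y
      · intro hy
        have h14 := key (-t) _ hy
        rw [← g.xg_inv hr] at h14
        have h15 : (g.xg r t)⁻¹ * (g.xg r t * y * (g.xg r t)⁻¹) * ((g.xg r t)⁻¹)⁻¹ = y := by group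
        rw [h15] at h14
        exact h14
    exact hRSV.to_le (sup_le_sup_left le_sup_left _)

theorem stmt_2186 [Finite F] {p : ℕ} [Fact p.Prime] [CharP F p] {r : ℕ} {lg : ℕ → Bool} (h : pairChk D g.w g.N r lg = true) {x : GL D.Idx F} (hx : x ∈ g.GG F) :
    IsPGroup p ↥(D.rootSubgroup F r ⊔ (D.rootSubgroup F r).map (MulAut.conj x).toMonoidHom) ∨
    ∃ h ∈ g.GG F, (D.rootSubgroup F r ⊔ (D.rootSubgroup F r).map (MulAut.conj x).toMonoidHom).map (MulAut.conj h).toMonoidHom =
      D.rootSubgroup F r ⊔ D.rootSubgroup F (D.neg r) := by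
  obtain ⟨⟨hNr, hr⟩, hlr, hw, h1, h2⟩ := pairChk_spec h
  have hN := g.hN
  obtain ⟨b, hb, L, hL, u, hu, rfl⟩ := g.bruhat hx
  obtain ⟨y, hy, h0, hh0, rfl⟩ := g.mem_BB.1 hb
  have huU : u ∈ g.UU F := g.XS_mono (fun s _ hs => hs.1) hu
  have hcU : ∀ z ∈ g.UU F, ∀ t : F, z * g.xg r t = g.xg r t * z := by
    intro z hz
    unfold UU XS at hz
    induction hz using Subgroup.closure_induction with
    | mem z hz =>
      obtain ⟨s, v, hs, hs', rfl⟩ := hz
      intro t
      by_cases hsr : s = r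
      · subst hsr
        rw [g.xg_add hr, g.xg_add hr, add_comm]
      · exact g.comm_nil' hr hs' hsr (by have := g.neg_lt_N hr hNr; omega) (h1 s hs (by omega)) t v
    | one => intro t; simp
    | mul a b _ _ ha hb => intro t; rw [mul_assoc, hb, ← mul_assoc, ha, mul_assoc]
    | inv a _ ha =>
      intro t
      have := ha t
      calc a⁻¹ * g.xg r t = a⁻¹ * (g.xg r t * a) * a⁻¹ := by group
        _ = a⁻¹ * (a * g.xg r t) * a⁻¹ := by rw [this]
        _ = g.xg r t * a⁻¹ := by group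
  have hmapU : ∀ z ∈ g.UU F, (D.rootSubgroup F r).map (MulAut.conj z).toMonoidHom = D.rootSubgroup F r := by
    intro z hz
    ext w
    constructor
    · rintro ⟨v, hv, rfl⟩
      obtain ⟨t, rfl⟩ := (g.mem_root hr v).1 hv
      show z * g.xg r t * z⁻¹ ∈ _
      rw [hcU z hz, mul_assoc, mul_inv_cancel, mul_one]
      exact hv
    · intro hv
      obtain ⟨t, rfl⟩ := (g.mem_root hr w).1 hv
      refine ⟨g.xg r t, hv, ?_⟩
      show z * g.xg r t * z⁻¹ = _
      rw [hcU z hz, mul_assoc, mul_inv_cancel, mul_one]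
  obtain ⟨s, hs⟩ : ∃ s, s = g.wl L r := ⟨_, rfl⟩
  have hsn : s < D.nroots := by rw [hs]; exact g.wl_lt hL hr
  have hls : lg s = true := by rw [hs]; exact g.wl_lg hw L hL r hr hlr
  have hmapN : (D.rootSubgroup F r).map (MulAut.conj (h0 * g.nl F L)).toMonoidHom = D.rootSubgroup F s := by
    obtain ⟨c, hc⟩ := g.NN_x hL hh0 (x := h0 * g.nl F L) rfl hr
    ext w
    constructor
    · rintro ⟨v, hv, rfl⟩
      obtain ⟨t, rfl⟩ := (g.mem_root hr v).1 hv
      show h0 * g.nl F L * g.xg r t * (h0 * g.nl F L)⁻¹ ∈ _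
      rw [hc, ← hs]
      exact (g.mem_root hsn _).2 ⟨_, rfl⟩
    · intro hv
      obtain ⟨t, rfl⟩ := (g.mem_root hsn w).1 hv
      refine ⟨g.xg r ((c⁻¹ : Fˣ) * t), (g.mem_root hr _).2 ⟨_, rfl⟩, ?_⟩
      show h0 * g.nl F L * g.xg r _ * (h0 * g.nl F L)⁻¹ = _
      rw [hc, ← hs, ← mul_assoc, Units.mul_inv, one_mul]
  have hmain : D.rootSubgroup F r ⊔ (D.rootSubgroup F r).map (MulAut.conj (y * h0 * g.nl F L * u)).toMonoidHom =
      (D.rootSubgroup F r ⊔ D.rootSubgroup F s).map (MulAut.conj y).toMonoidHom := by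
    rw [Subgroup.map_sup, hmapU y hy, ← hmapN, Subgroup.map_map]
    congr 1
    conv_rhs => rw [← hmapU u huU, Subgroup.map_map]
    congr 1
    ext z : 1
    show y * h0 * g.nl F L * u * z * (y * h0 * g.nl F L * u)⁻¹ = y * (h0 * g.nl F L * (u * z * u⁻¹) * (h0 * g.nl F L)⁻¹) * y⁻¹
    group
  rw [hmain]
  by_cases hsr : s = D.neg r
  · right
    refine ⟨y⁻¹, Subgroup.inv_mem _ (g.UU_le_GG hy), ?_⟩
    rw [Subgroup.map_map, hsr]
    have : (MulAut.conj y⁻¹).toMonoidHom.comp (MulAut.conj y).toMonoidHom = MonoidHom.id (GL D.Idx F) := by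
      ext z : 1
      show y⁻¹ * (y * z * y⁻¹) * y⁻¹⁻¹ = z
      group
    rw [this, Subgroup.map_id]
  · left
    apply IsPGroup.map
    by_cases hsr' : s = r
    · rw [hsr', sup_idem]
      exact g.root_pgroup hr
    · rcases lt_or_ge s g.N with hlt | hge
      · exact g.pair_pgroup hr hsn hsr' hsr (h2 s hlt hls hsr)
      · exact g.pair_pgroup hr hsn hsr' hsr (Or.inl (h1 s hge (by omega)))

end Good

end Chv
end CfsgH6
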