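import Cfsg.Agent.H6.ChZ6

set_option autoImplicit false

/-! Centralizers of the mixed involutions in types G₂ and F₄ (characteristic two). -/

namespace CfsgH6
namespace Chv

open Cfsg.Lie

def mixChk (D : ChevalleyDatum) (w : ℕ → ℕ → ℕ) (coef : ℕ → ℕ → ℤ) (N : ℕ) (T : List (ℕ × ℤ)) (A0 : List ℕ) (lg : ℕ → Bool) : Bool :=
  decide ((T.map Prod.fst ++ A0).Nodup) && ((T.map Prod.fst ++ A0).all fun a => decide (N ≤ a ∧ a < D.nroots)) &&
  ((T.map Prod.fst ++ A0).all fun a => (T.map Prod.fst ++ A0).all fun b => decide (D.commTerms a b = [])) &&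
  ((T.map Prod.fst ++ A0).all fun a => (List.range' N N).all fun s => (D.commTerms s a).all fun c => A0.contains c.1 || decide (c.2.1 % 2 = 0)) &&
  ((List.range D.rank).all fun i => (List.range D.nroots).all fun s => decide (lg (w i s) = lg s)) &&
  ((T.map Prod.fst).all fun r => (T.map Prod.fst ++ A0).all fun a => !(decide (lg a = lg r)) || (List.range D.rank).all fun j => decide (coef r j ≤ coef a j)) &&
  ((List.range D.rank).all fun i => decide (0 ≤ ((T.map Prod.fst).map fun r => D.cartan i r).sum)) &&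
  ((List.range D.rank).all fun i => decide (0 ≤ (T.map fun r => r.2 * D.cartan i r.1).sum)) &&
  ((List.range D.rank).all fun i => !(decide ((T.map fun r => r.2 * D.cartan i r.1).sum = 0)) || T.all fun r => decide (D.cartan i r.1 = 0))

def lgG2 (s : ℕ) : Bool := [0, 1, 5, 6, 10, 11].contains s
def lgF4 (s : ℕ) : Bool := [0, 1, 2, 4, 5, 6, 15, 16, 17, 21, 22, 23, 24, 25, 26, 30, 31, 32, 41, 42, 43, 45, 46, 47].contains s

theorem mxG2 : mixChk chevG2 encG2.w encG2.coef 6 [(9, 1)] [10, 11] lgG2 = true := by decide +kernel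
theorem mxF4 : mixChk chevF4 encF4.w encF4.coef 24 [(39, 3), (45, 2)] [40, 44, 46, 47] lgF4 = true := by decide +kernel
theorem mxF4' : mixChk chevF4 encF4.w encF4.coef 24 [(47, 1), (44, 1)] [] lgF4 = true := by decide +kernel

theorem mixChk_spec {D : ChevalleyDatum} (g : Good D) {T : List (ℕ × ℤ)} {A0 : List ℕ} {lg : ℕ → Bool} (h : mixChk D g.w g.coef g.N T A0 lg = true) :
    MixC g T A0 lg := by
  unfold mixChk at h
  simp only [Bool.and_eq_true, decide_eq_true_eq, List.all_eq_true, List.mem_range, Bool.or_eq_true, List.mem_range'_1,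
    Bool.not_eq_true', decide_eq_false_iff_not, List.contains_iff_mem] at h
  obtain ⟨⟨⟨⟨⟨⟨⟨⟨h1, h2⟩, h3⟩, h4⟩, h5⟩, h6⟩, h7⟩, h8⟩, h9⟩ := h
  exact {
    nd := h1
    pos := h2
    comm := h3
    ideal := fun a ha s hs hs' c hc => h4 a ha s ⟨hs, hs'⟩ c hc
    lgw := h5
    up := fun r hr a ha hl j hj => (h6 r hr a ha).resolve_left (fun h => h hl) j hj
    dom := h7
    dom2 := h8
    zero := fun i hi h0 r hr => (h9 i hi).resolve_left (fun h => h h0) r hr }

end Chv
end CfsgH6
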