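import Cfsg.Agent.H6.ChZ7
import Cfsg.Agent.H6.ChZ2

set_option autoImplicit false

/-! Centralizers of the mixed involutions: final statements. -/

namespace CfsgH6
namespace Chv

open Cfsg.Lie

/-- `S` satisfies the conditions of the main theorem -/
def mixS (D : ChevalleyDatum) (N : ℕ) (T : List (ℕ × ℤ)) (S : ℕ → Bool) : Bool :=
  ((List.range D.nroots).all fun s => !(S s) || (T.map Prod.fst).all fun r => decide (s = r) || (decide (s ≠ D.neg r) &&
    (D.commTerms r s).all fun c => decide (c.2.1 % 2 = 0))) &&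
  ((List.range D.rank).all fun j => !(decide ((T.map fun r => r.2 * D.cartan j r.1).sum = 0)) || (S (D.simple j) && S (D.neg (D.simple j)))) &&
  ((List.range' N N).all fun r => !((List.range D.rank).all fun i => decide ((T.map fun r => r.2 * D.cartan i r.1).sum = 0) || decide (cor D r i = 0)) || S r)

theorem mixS_spec {D : ChevalleyDatum} {N : ℕ} {T : List (ℕ × ℤ)} {S : ℕ → Bool} (h : mixS D N T S = true) :
    (∀ s < D.nroots, S s = true → ∀ r ∈ T.map Prod.fst, s = r ∨ (s ≠ D.neg r ∧ ∀ c ∈ D.commTerms r s, c.2.1 % 2 = 0)) ∧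
    (∀ j < D.rank, (T.map fun r => r.2 * D.cartan j r.1).sum = 0 → S (D.simple j) = true ∧ S (D.neg (D.simple j)) = true) ∧
    (∀ r, N ≤ r → r < N + N → (∀ i < D.rank, (T.map fun r => r.2 * D.cartan i r.1).sum = 0 ∨ cor D r i = 0) → S r = true) := by
  unfold mixS at h
  simp only [Bool.and_eq_true, List.all_eq_true, List.mem_range, Bool.or_eq_true, List.mem_range'_1,
    Bool.not_eq_true', decide_eq_true_eq, decide_eq_false_iff_not] at h
  obtain ⟨⟨h1, h2⟩, h3⟩ := h
  refine ⟨?_, ?_, ?_⟩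
  · intro s hs hS r hr
    rcases h1 s hs with h | h
    · rw [hS] at h; exact absurd h (by decide)
    · exact h r hr
  · intro j hj h0
    rcases h2 j hj with h | h
    · exact absurd h0 h
    · exact h
  · intro r hr hr' h0
    rcases h3 r ⟨hr, hr'⟩ with h | h
    · exfalso
      rw [← Bool.not_eq_true, List.all_eq_true] at h
      apply h
      intro i hi
      rw [Bool.or_eq_true, decide_eq_true_eq, decide_eq_true_eq]
      exact h0 i (List.mem_range.1 hi)
    · exact h

variable {D : ChevalleyDatum} (g : Good D) {F : Type*} [Field F]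

namespace Good

theorem XS_comm [CharP F 2] {S : ℕ → Prop} {T' : List ℕ} (hT' : ∀ r ∈ T', r < D.nroots)
    (h : ∀ s < D.nroots, S s → ∀ r ∈ T', s = r ∨ (s ≠ D.neg r ∧ ∀ c ∈ D.commTerms r s, c.2.1 % 2 = 0)) (τ : ℕ → F)
    {z : GL D.Idx F} (hz : z ∈ g.XS F S) : z * tel g T' τ = tel g T' τ * z := by
  have h1 : g.XS F S ≤ Subgroup.centralizer {tel g T' τ} := by
    unfold XS
    rw [Subgroup.closure_le]
    rintro _ ⟨s, u, hs, hs', rfl⟩
    refine Subgroup.mem_centralizer_singleton_iff.2 ?_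
    have h2 : ∀ L : List ℕ, (∀ r ∈ L, r ∈ T') → g.xg s u * tel g L τ = tel g L τ * g.xg s u := by
      intro L
      induction L with
      | nil => intro _; simp [tel]
      | cons a L ih =>
        intro hL
        have h3 : tel g (a :: L) τ = g.xg a (τ a) * tel g L τ := by unfold tel; rw [List.map_cons, List.prod_cons]
        have h4 : g.xg s u * g.xg a (τ a) = g.xg a (τ a) * g.xg s u := by
          have ha := hL a List.mem_cons_self
          by_cases hsa : s = a
          · subst hsa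
            rw [g.xg_add hs', g.xg_add hs', add_comm]
          · obtain ⟨h5, h6⟩ := (h s hs' hs a ha).resolve_left hsa
            exact g.even_comm (hT' a ha) hs' hsa h5 h6 _ _
        rw [h3, ← mul_assoc, h4, mul_assoc, ih (fun b hb => hL b (List.mem_cons_of_mem _ hb)), mul_assoc]
    exact h2 T' fun _ h => h
  exact Subgroup.mem_centralizer_singleton_iff.1 (h1 hz)

theorem hD_XS {S : ℕ → Prop} {r : ℕ} (hr : r < D.nroots) (h1 : S r) (h2 : S (D.neg r)) (t : Fˣ) : g.hD r t ∈ g.XS F S := by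
  have hng : ∀ t : F, g.ng r t ∈ g.XS F S := by
    intro t
    unfold ng
    exact Subgroup.mul_mem _ (Subgroup.mul_mem _ (g.xg_mem (S := S) h1 _) (g.xg_mem (S := S) h2 _)) (g.xg_mem (S := S) h1 _)
  have h3 := g.ng_eq hr t
  have h4 : (g.hD r t : GL D.Idx F) = g.ng r (t : F) * (g.ng r 1)⁻¹ := by rw [h3]; group
  rw [h4]
  exact Subgroup.mul_mem _ (hng _) (Subgroup.inv_mem _ (hng _))

theorem prod_one {L0 : List ℕ} (hnd : L0.Nodup) (hpos : ∀ a ∈ L0, g.N ≤ a ∧ a < D.nroots) (c : ℕ → F)
    (hc : ∀ a ∈ L0, ∀ b ∈ L0, a ≠ b → D.commTerms a b = []) (h : (L0.map fun a => g.xg a (c a)).prod = 1) : ∀ a ∈ L0, c a = 0 := by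
  intro a ha
  have h0 := g.comm_prod_ord hnd hpos c (fun a ha b hb => by
    by_cases hab : a = b
    · subst hab; rfl
    · exact g.comm_nil'' (hpos b hb).2 (hpos a ha).2 hab (by have := g.neg_lt_N (hpos b hb).2 (hpos b hb).1; have := (hpos a ha).1; omega)
        (hc b hb a ha (fun h => hab h.symm)) _ _)
  rw [h0] at h
  have h1 : g.ordP (fun _ => (0 : F)) (List.range' g.N g.N) = 1 := by
    unfold ordP
    apply List.prod_eq_one
    intro x hx
    obtain ⟨c, hc, rfl⟩ := List.mem_map.1 hx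
    exact g.xg_zero _
  rw [← h1] at h
  have h2 := g.U_inj h (hpos a ha).1 (hpos a ha).2
  rw [if_pos ha] at h2
  exact h2

end Good

variable {g} {T : List (ℕ × ℤ)} {A0 : List ℕ} {lg : ℕ → Bool}

theorem MixC.main [CharP F 2] (M : MixC g T A0 lg) {S : ℕ → Bool} (hS : mixS D g.N T S = true)
    (hH : ∀ c : ℕ → Fˣ, (∀ r ∈ T.map Prod.fst, g.hcf c r = 1) → ∀ i < D.rank, (T.map fun r => r.2 * D.cartan i r.1).sum ≠ 0 → c i = 1)
    (hU : ∀ y ∈ g.UU F, y * tel g (T.map Prod.fst) (fun _ => 1) = tel g (T.map Prod.fst) (fun _ => 1) * y → y ∈ g.XS F (fun s => S s = true)) :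
    g.GG F ⊓ Subgroup.centralizer {tel g (T.map Prod.fst) (fun _ => 1)} = g.XS F (fun s => S s = true) := by
  obtain ⟨h1, h2, h3⟩ := mixS_spec hS
  have hK3 : ∀ z ∈ g.XS F (fun s => S s = true), z * tel g (T.map Prod.fst) (fun _ => 1) = tel g (T.map Prod.fst) (fun _ => 1) * z := by
    intro z hz
    exact g.XS_comm (fun r hr => (M.pos r (List.mem_append_left _ hr)).2) h1 _ hz
  apply le_antisymm
  · rintro x ⟨hx, hxc⟩
    refine M.mix_cent ?_ ?_ hK3 ?_ hU hx (Subgroup.mem_centralizer_singleton_iff.1 hxc)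
    · intro j hj h0
      obtain ⟨h4, h5⟩ := h2 j hj h0
      unfold Good.nn
      exact Subgroup.mul_mem _ (Subgroup.mul_mem _ (g.xg_mem (S := fun s => S s = true) h4 _) (g.xg_mem (S := fun s => S s = true) h5 _))
        (g.xg_mem (S := fun s => S s = true) h4 _)
    · intro r hr hr' h0 u
      refine g.xg_mem (S := fun s => S s = true) (h3 r hr (by have := g.hN; omega) ?_) u
      intro i hi
      by_cases h : (T.map fun r => r.2 * D.cartan i r.1).sum = 0
      · exact Or.inl h
      · exact Or.inr (h0 i hi h)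
    · intro c hc
      rw [g.hc_eq_prod]
      apply Subgroup.list_prod_mem
      intro x hx
      obtain ⟨i, hi, rfl⟩ := List.mem_map.1 hx
      have hi' := List.mem_range.1 hi
      by_cases h : (T.map fun r => r.2 * D.cartan i r.1).sum = 0
      · obtain ⟨h4, h5⟩ := h2 i hi' h
        exact g.hD_XS (S := fun s => S s = true) (g.simple_lt i hi') h4 h5 _
      · rw [hH c hc i hi' h, g.hD_one]
        exact Subgroup.one_mem _
  · intro z hz
    refine ⟨?_, Subgroup.mem_centralizer_singleton_iff.2 (hK3 z hz)⟩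
    have h4 : g.XS F (fun s => S s = true) ≤ g.GG F := by
      unfold Good.XS
      rw [Subgroup.closure_le]
      rintro _ ⟨s, u, hs, hs', rfl⟩
      exact g.xg_mem_GG _ _
    exact h4 hz

end Chv
end CfsgH6
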