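import Cfsg.Agent.H6.ChZ8

set_option autoImplicit false

/-! Centralizers of the mixed involutions: types G₂ and F₄. -/

namespace CfsgH6
namespace Chv

open Cfsg.Lie

def SG2 (s : ℕ) : Bool := [9, 10, 11, 6, 5].contains s
def SF4 (s : ℕ) : Bool := [33, 14, 24, 23].contains s || (decide (24 ≤ s) && !([27, 25, 34, 26].contains s))
def SF4' (s : ℕ) : Bool := decide (24 ≤ s) || [20, 22].contains s

theorem sG2 : mixS chevG2 6 [(9, 1)] SG2 = true := by decide +kernel
theorem sF4 : mixS chevF4 24 [(39, 3), (45, 2)] SF4 = true := by decide +kernel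
theorem sF4' : mixS chevF4 24 [(47, 1), (44, 1)] SF4' = true := by decide +kernel

/-- the root subgroups of `L` commute modulo two with those of `T'` -/
def cAll (D : ChevalleyDatum) (T' L : List ℕ) : Bool :=
  L.all fun s => decide (s < D.nroots) && T'.all fun r => decide (r < D.nroots) && (decide (s = r) || (decide (s ≠ D.neg r) && (D.commTerms r s).all fun c => decide (c.2.1 % 2 = 0)))

theorem cAll_spec {D : ChevalleyDatum} {T' L : List ℕ} (h : cAll D T' L = true) : ∀ s ∈ L, s < D.nroots ∧ ∀ r ∈ T', r < D.nroots ∧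
    (s = r ∨ (s ≠ D.neg r ∧ ∀ c ∈ D.commTerms r s, c.2.1 % 2 = 0)) := by
  unfold cAll at h
  simp only [Bool.and_eq_true, List.all_eq_true, Bool.or_eq_true, decide_eq_true_eq] at h
  exact h

variable {F : Type*} [Field F]

namespace Good

variable {D : ChevalleyDatum} (g : Good D)

theorem cAll_xx [CharP F 2] {T' L : List ℕ} (h : cAll D T' L = true) {r s : ℕ} (hr : r ∈ T') (hs : s ∈ L) (t u : F) :
    g.xg s u * g.xg r t = g.xg r t * g.xg s u := by
  obtain ⟨h1, h2⟩ := cAll_spec h s hs
  obtain ⟨h3, h4⟩ := h2 r hr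
  by_cases hsa : s = r
  · subst hsa
    rw [g.xg_add h1, g.xg_add h1, add_comm]
  · obtain ⟨h5, h6⟩ := h4.resolve_left hsa
    exact g.even_comm h3 h1 hsa h5 h6 _ _

theorem cAll_ord [CharP F 2] {T' L : List ℕ} (h : cAll D T' L = true) {r : ℕ} (hr : r ∈ T') (c : ℕ → F) (t : F) :
    g.ordP c L * g.xg r t = g.xg r t * g.ordP c L := by
  have h2 : ∀ L' : List ℕ, (∀ s ∈ L', s ∈ L) → g.ordP c L' * g.xg r t = g.xg r t * g.ordP c L' := by
    intro L'
    induction L' with
    | nil => intro _; simp [ordP]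
    | cons a L' ih =>
      intro hL
      have h3 : g.ordP c (a :: L') = g.xg a (c a) * g.ordP c L' := by unfold ordP; rw [List.map_cons, List.prod_cons]
      rw [h3, mul_assoc, ih (fun s hs => hL s (List.mem_cons_of_mem _ hs)), ← mul_assoc, g.cAll_xx h hr (hL a List.mem_cons_self), mul_assoc]
  exact h2 L fun _ h => h

theorem comm_odd [CharP F 2] {r s k : ℕ} {e : ℤ} (hr : r < D.nroots) (hs : s < D.nroots) (h1 : s ≠ r) (h2 : s ≠ D.neg r)
    (h : D.commTerms r s = [(k, e, 1, 1)]) (he : e % 2 = 1) (t u : F) : g.xg s u * g.xg r t = g.xg r t * g.xg s u * g.xg k (t * u) := by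
  have h3 : ((e : ℤ) : F) = 1 := by
    have h4 : ((e - 1 : ℤ) : F) = 0 := by
      rw [CharP.intCast_eq_zero_iff F 2]
      omega
    push_cast at h4
    linear_combination h4
  rw [g.xg_comm hr hs h1 h2, h, List.map_cons, List.map_nil, List.prod_cons, List.prod_nil, mul_one]
  simp only [h3, one_mul, pow_one]
  rw [CharTwo.neg_eq]

end Good

theorem grpG2 {G : Type*} [Group G] {t X6 X7 X8 K X10 X11 : G} (h6 : t * X6 = X6 * t) (h7 : t * X7 = X7 * t * X10) (h8 : t * X8 = X8 * t * X11)
    (h10 : X10 * X8 = X8 * X10) (hK : K * t = t * K) (h : X6 * X7 * X8 * K * t = t * (X6 * X7 * X8 * K)) : X11 * X10 = 1 := by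
  have h1 : t * (X6 * X7 * X8 * K) = X6 * X7 * X8 * t * (X11 * X10) * K := by
    calc t * (X6 * X7 * X8 * K) = (t * X6) * X7 * X8 * K := by group
      _ = X6 * (t * X7) * X8 * K := by rw [h6]; group
      _ = X6 * X7 * t * (X10 * X8) * K := by rw [h7]; group
      _ = X6 * X7 * (t * X8) * X10 * K := by rw [h10]; group
      _ = _ := by rw [h8]; group
  rw [h1, mul_assoc _ K t, hK] at h
  have h2 : X6 * X7 * X8 * t * (X11 * X10) * K = X6 * X7 * X8 * t * 1 * K := by rw [← h]; group
  exact mul_left_cancel (mul_right_cancel h2)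

theorem G2_U [CharP F 2] : ∀ y ∈ goodG2.UU F, y * tel goodG2 [9] (fun _ => 1) = tel goodG2 [9] (fun _ => 1) * y → y ∈ goodG2.XS F (fun s => SG2 s = true) := by
  intro y hy hc
  obtain ⟨c, rfl⟩ := goodG2.exists_ordP 6 6 rfl (le_refl _) y hy
  have ht : tel goodG2 [9] (fun _ => 1) = goodG2.xg 9 (1 : F) := by
    unfold tel; rw [List.map_cons, List.map_nil, List.prod_cons, List.prod_nil, mul_one]
  have ho : goodG2.ordP c (List.range' 6 6) = goodG2.xg 6 (c 6) * goodG2.xg 7 (c 7) * goodG2.xg 8 (c 8) * goodG2.ordP c [9, 10, 11] := by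
    have : List.range' 6 6 = [6, 7, 8, 9, 10, 11] := by decide
    rw [this]
    unfold Good.ordP
    simp only [List.map_cons, List.prod_cons, mul_assoc]
  rw [ht, ho] at hc
  have h9 : cAll chevG2 [9] [6, 10, 11, 9] = true := by decide +kernel
  have h9' : cAll chevG2 [9] [9, 10, 11] = true := by decide +kernel
  have h10 : cAll chevG2 [8] [10] = true := by decide +kernel
  have hn : chevG2.nroots = 12 := rfl
  have h79 := goodG2.comm_odd (F := F) (r := 7) (s := 9) (k := 10) (e := 3) (by rw [hn]; norm_num) (by rw [hn]; norm_num) (by norm_num) (by decide +kernel)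
    (by decide +kernel) (by norm_num) (c 7) 1
  have h89 := goodG2.comm_odd (F := F) (r := 8) (s := 9) (k := 11) (e := 3) (by rw [hn]; norm_num) (by rw [hn]; norm_num) (by norm_num) (by decide +kernel)
    (by decide +kernel) (by norm_num) (c 8) 1
  have h1 := grpG2 (goodG2.cAll_xx h9 (r := 9) (s := 6) (by decide) (by decide) 1 (c 6)).symm h79 h89
    (goodG2.cAll_xx h10 (r := 8) (s := 10) (by decide) (by decide) (c 8) (c 7 * 1)) (goodG2.cAll_ord h9' (r := 9) (by decide) c 1) hc
  have h2 := goodG2.prod_one (F := F) (L0 := [11, 10]) (by decide) (by decide +kernel) (fun a => if a = 11 then c 8 * 1 else c 7 * 1) (by decide +kernel)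
    (by simpa using h1)
  have h3 : c 8 = 0 := by simpa using h2 11 (by decide)
  have h4 : c 7 = 0 := by simpa using h2 10 (by decide)
  rw [ho, h3, h4, goodG2.xg_zero, goodG2.xg_zero, mul_one, mul_one]
  refine Subgroup.mul_mem _ (goodG2.xg_mem (S := fun s => SG2 s = true) (by decide) _) ?_
  unfold Good.ordP
  apply Subgroup.list_prod_mem
  intro z hz
  obtain ⟨a, ha, rfl⟩ := List.mem_map.1 hz
  refine goodG2.xg_mem (S := fun s => SG2 s = true) ?_ _
  clear hz
  revert a
  decide

theorem grpF4 {G : Type*} [Group G] {t X24 X25 X26 X27 M X33 X34 R E46 E47 E40 E44 E44' : G} (h24 : t * X24 = X24 * t)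
    (h25 : t * X25 = X25 * t * E46) (h26 : t * X26 = X26 * t * E47) (h27 : t * X27 = X27 * t * E40) (hM : M * t = t * M)
    (h33 : t * X33 = X33 * t) (h34 : t * X34 = X34 * t * E44) (hR : R * t = t * R)
    (a26 : E46 * X26 = X26 * E46) (a27 : E46 * X27 = X27 * E46) (aM : M * E46 = E46 * M) (a33 : E46 * X33 = X33 * E46) (a34 : E46 * X34 = X34 * E46)
    (b27 : E47 * X27 = X27 * E47) (bM : M * E47 = E47 * M) (b33 : E47 * X33 = X33 * E47) (b34 : E47 * X34 = X34 * E47)
    (cM : M * E40 = E40 * M) (c33 : E40 * X33 = X33 * E40 * E44') (c34 : E40 * X34 = X34 * E40) (d34 : E44' * X34 = X34 * E44')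
    (h : X24 * X25 * X26 * X27 * M * X33 * X34 * R * t = t * (X24 * X25 * X26 * X27 * M * X33 * X34 * R)) :
    E44 * E40 * E44' * E47 * E46 = 1 := by
  have h1 : t * (X24 * X25 * X26 * X27 * M * X33 * X34 * R) = X24 * X25 * X26 * X27 * M * X33 * X34 * t * (E44 * E40 * E44' * E47 * E46) * R := by
    calc t * (X24 * X25 * X26 * X27 * M * X33 * X34 * R) = (t * X24) * X25 * X26 * X27 * M * X33 * X34 * R := by group
      _ = X24 * (t * X25) * X26 * X27 * M * X33 * X34 * R := by rw [h24]; group
      _ = X24 * X25 * t * (E46 * X26) * X27 * M * X33 * X34 * R := by rw [h25]; group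
      _ = X24 * X25 * (t * X26) * (E46 * X27) * M * X33 * X34 * R := by rw [a26]; group
      _ = X24 * X25 * X26 * t * (E47 * X27) * (E46 * M) * X33 * X34 * R := by rw [h26, a27]; group
      _ = X24 * X25 * X26 * (t * X27) * (E47 * M) * (E46 * X33) * X34 * R := by rw [b27, ← aM]; group
      _ = X24 * X25 * X26 * X27 * t * (E40 * M) * (E47 * X33) * (E46 * X34) * R := by rw [h27, ← bM, a33]; group
      _ = X24 * X25 * X26 * X27 * (t * M) * (E40 * X33) * (E47 * X34) * E46 * R := by rw [← cM, b33, a34]; group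
      _ = X24 * X25 * X26 * X27 * M * (t * X33) * E40 * (E44' * X34) * E47 * E46 * R := by rw [← hM, c33, b34]; group
      _ = X24 * X25 * X26 * X27 * M * X33 * t * (E40 * X34) * E44' * E47 * E46 * R := by rw [h33, d34]; group
      _ = X24 * X25 * X26 * X27 * M * X33 * (t * X34) * E40 * E44' * E47 * E46 * R := by rw [c34]; group
      _ = _ := by rw [h34]; group
  rw [h1, mul_assoc _ R t, hR] at h
  have h2 : X24 * X25 * X26 * X27 * M * X33 * X34 * t * (E44 * E40 * E44' * E47 * E46) * R = X24 * X25 * X26 * X27 * M * X33 * X34 * t * 1 * R := by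
    rw [← h]; group
  exact mul_left_cancel (mul_right_cancel h2)

theorem two_comm {G : Type*} [Group G] {a b x : G} (h1 : x * a = a * x) (h2 : x * b = b * x) : x * (a * b) = a * b * x := by
  rw [← mul_assoc, h1, mul_assoc, h2, mul_assoc]

theorem F4_U [CharP F 2] : ∀ y ∈ goodF4.UU F, y * tel goodF4 [39, 45] (fun _ => 1) = tel goodF4 [39, 45] (fun _ => 1) * y →
    y ∈ goodF4.XS F (fun s => SF4 s = true) := by
  intro y hy hc
  obtain ⟨c, rfl⟩ := goodF4.exists_ordP 24 24 rfl (le_refl _) y hy
  have ht : tel goodF4 [39, 45] (fun _ => 1) = goodF4.xg 39 (1 : F) * goodF4.xg 45 (1 : F) := by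
    unfold tel; rw [List.map_cons, List.map_cons, List.map_nil, List.prod_cons, List.prod_cons, List.prod_nil, mul_one]
  have ho : goodF4.ordP c (List.range' 24 24) = goodF4.xg 24 (c 24) * goodF4.xg 25 (c 25) * goodF4.xg 26 (c 26) * goodF4.xg 27 (c 27) *
      goodF4.ordP c [28, 29, 30, 31, 32] * goodF4.xg 33 (c 33) * goodF4.xg 34 (c 34) * goodF4.ordP c [35, 36, 37, 38, 39, 40, 41, 42, 43, 44, 45, 46, 47] := by
    have : List.range' 24 24 = [24, 25, 26, 27, 28, 29, 30, 31, 32, 33, 34, 35, 36, 37, 38, 39, 40, 41, 42, 43, 44, 45, 46, 47] := by decide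
    rw [this]
    unfold Good.ordP
    simp only [List.map_cons, List.prod_cons, mul_assoc, List.map_nil, List.prod_nil, one_mul]
  rw [ht, ho] at hc
  have h39 : cAll chevF4 [39] [24, 25, 26, 28, 29, 30, 31, 32, 33, 35, 36, 37, 38, 39, 40, 41, 42, 43, 44, 45, 46, 47] = true := by decide +kernel
  have h45 : cAll chevF4 [45] [24, 27, 28, 29, 30, 31, 32, 33, 34, 35, 36, 37, 38, 39, 40, 41, 42, 43, 44, 45, 46, 47] = true := by decide +kernel
  have hM39 : cAll chevF4 [39] [28, 29, 30, 31, 32] = true := by decide +kernel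
  have hM45 : cAll chevF4 [45] [28, 29, 30, 31, 32] = true := by decide +kernel
  have hR39 : cAll chevF4 [39] [35, 36, 37, 38, 39, 40, 41, 42, 43, 44, 45, 46, 47] = true := by decide +kernel
  have hR45 : cAll chevF4 [45] [35, 36, 37, 38, 39, 40, 41, 42, 43, 44, 45, 46, 47] = true := by decide +kernel
  have hM46 : cAll chevF4 [46, 47, 40] [28, 29, 30, 31, 32] = true := by decide +kernel
  have h46 : cAll chevF4 [26, 27, 33, 34, 45] [46, 47] = true := by decide +kernel
  have h40 : cAll chevF4 [34, 45] [40] = true := by decide +kernel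
  have h44 : cAll chevF4 [34, 45] [44] = true := by decide +kernel
  have hn : chevF4.nroots = 48 := rfl
  have k25 := goodF4.comm_odd (F := F) (r := 25) (s := 45) (k := 46) (e := 1) (by rw [hn]; norm_num) (by rw [hn]; norm_num) (by norm_num) (by decide +kernel)
    (by decide +kernel) (by norm_num) (c 25) 1
  have k26 := goodF4.comm_odd (F := F) (r := 26) (s := 45) (k := 47) (e := 1) (by rw [hn]; norm_num) (by rw [hn]; norm_num) (by norm_num) (by decide +kernel)
    (by decide +kernel) (by norm_num) (c 26) 1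
  have k27 := goodF4.comm_odd (F := F) (r := 27) (s := 39) (k := 40) (e := 1) (by rw [hn]; norm_num) (by rw [hn]; norm_num) (by norm_num) (by decide +kernel)
    (by decide +kernel) (by norm_num) (c 27) 1
  have k34 := goodF4.comm_odd (F := F) (r := 34) (s := 39) (k := 44) (e := 1) (by rw [hn]; norm_num) (by rw [hn]; norm_num) (by norm_num) (by decide +kernel)
    (by decide +kernel) (by norm_num) (c 34) 1
  have k33 := goodF4.comm_odd (F := F) (r := 33) (s := 40) (k := 44) (e := 1) (by rw [hn]; norm_num) (by rw [hn]; norm_num) (by norm_num) (by decide +kernel)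
    (by decide +kernel) (by norm_num) (c 33) (c 27 * 1)
  have h1 := grpF4
    (two_comm (goodF4.cAll_xx h39 (r := 39) (s := 24) (by decide) (by decide) 1 (c 24)) (goodF4.cAll_xx h45 (r := 45) (s := 24) (by decide) (by decide) 1 (c 24))).symm
    (show goodF4.xg 39 (1 : F) * goodF4.xg 45 (1 : F) * goodF4.xg 25 (c 25) = goodF4.xg 25 (c 25) * (goodF4.xg 39 (1 : F) * goodF4.xg 45 (1 : F)) * goodF4.xg 46 (c 25 * 1) by
      rw [mul_assoc, k25, ← mul_assoc, ← mul_assoc, ← goodF4.cAll_xx h39 (r := 39) (s := 25) (by decide) (by decide) 1 (c 25)]; group)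
    (show goodF4.xg 39 (1 : F) * goodF4.xg 45 (1 : F) * goodF4.xg 26 (c 26) = goodF4.xg 26 (c 26) * (goodF4.xg 39 (1 : F) * goodF4.xg 45 (1 : F)) * goodF4.xg 47 (c 26 * 1) by
      rw [mul_assoc, k26, ← mul_assoc, ← mul_assoc, ← goodF4.cAll_xx h39 (r := 39) (s := 26) (by decide) (by decide) 1 (c 26)]; group)
    (show goodF4.xg 39 (1 : F) * goodF4.xg 45 (1 : F) * goodF4.xg 27 (c 27) = goodF4.xg 27 (c 27) * (goodF4.xg 39 (1 : F) * goodF4.xg 45 (1 : F)) * goodF4.xg 40 (c 27 * 1) by
      rw [mul_assoc, ← goodF4.cAll_xx h45 (r := 45) (s := 27) (by decide) (by decide) 1 (c 27), ← mul_assoc, k27, mul_assoc,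
        goodF4.cAll_xx h40 (r := 45) (s := 40) (by decide) (by decide)]; group)
    (two_comm (goodF4.cAll_ord hM39 (r := 39) (by decide) c 1) (goodF4.cAll_ord hM45 (r := 45) (by decide) c 1))
    (two_comm (goodF4.cAll_xx h39 (r := 39) (s := 33) (by decide) (by decide) 1 (c 33)) (goodF4.cAll_xx h45 (r := 45) (s := 33) (by decide) (by decide) 1 (c 33))).symm
    (show goodF4.xg 39 (1 : F) * goodF4.xg 45 (1 : F) * goodF4.xg 34 (c 34) = goodF4.xg 34 (c 34) * (goodF4.xg 39 (1 : F) * goodF4.xg 45 (1 : F)) * goodF4.xg 44 (c 34 * 1) by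
      rw [mul_assoc, ← goodF4.cAll_xx h45 (r := 45) (s := 34) (by decide) (by decide) 1 (c 34), ← mul_assoc, k34, mul_assoc,
        goodF4.cAll_xx h44 (r := 45) (s := 44) (by decide) (by decide)]; group)
    (two_comm (goodF4.cAll_ord hR39 (r := 39) (by decide) c 1) (goodF4.cAll_ord hR45 (r := 45) (by decide) c 1))
    (goodF4.cAll_xx h46 (r := 26) (s := 46) (by decide) (by decide) _ _) (goodF4.cAll_xx h46 (r := 27) (s := 46) (by decide) (by decide) _ _)
    (goodF4.cAll_ord hM46 (r := 46) (by decide) c _)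
    (goodF4.cAll_xx h46 (r := 33) (s := 46) (by decide) (by decide) _ _) (goodF4.cAll_xx h46 (r := 34) (s := 46) (by decide) (by decide) _ _)
    (goodF4.cAll_xx h46 (r := 27) (s := 47) (by decide) (by decide) _ _)
    (goodF4.cAll_ord hM46 (r := 47) (by decide) c _)
    (goodF4.cAll_xx h46 (r := 33) (s := 47) (by decide) (by decide) _ _) (goodF4.cAll_xx h46 (r := 34) (s := 47) (by decide) (by decide) _ _)
    (goodF4.cAll_ord hM46 (r := 40) (by decide) c _) k33
    (goodF4.cAll_xx h40 (r := 34) (s := 40) (by decide) (by decide) _ _)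
    (goodF4.cAll_xx h44 (r := 34) (s := 44) (by decide) (by decide) _ _) hc
  rw [mul_assoc (goodF4.xg 44 (c 34 * 1)), goodF4.cAll_xx (L := [40]) (T' := [44]) (by decide +kernel) (r := 44) (s := 40) (by decide) (by decide),
    ← mul_assoc, goodF4.xg_add (by rw [hn]; norm_num)] at h1
  have h2 := goodF4.prod_one (F := F) (L0 := [44, 40, 47, 46]) (by decide) (by decide +kernel)
    (fun a => if a = 44 then c 34 * 1 + c 33 * (c 27 * 1) else if a = 40 then c 27 * 1 else if a = 47 then c 26 * 1 else c 25 * 1) (by decide +kernel)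
    (by simpa [mul_assoc] using h1)
  have e27 : c 27 = 0 := by simpa using h2 40 (by decide)
  have e26 : c 26 = 0 := by simpa using h2 47 (by decide)
  have e25 : c 25 = 0 := by simpa using h2 46 (by decide)
  have e34 : c 34 = 0 := by simpa [e27] using h2 44 (by decide)
  rw [ho, e27, e26, e25, e34]
  simp only [goodF4.xg_zero, mul_one]
  have hmem : ∀ L : List ℕ, (∀ a ∈ L, SF4 a = true) → goodF4.ordP c L ∈ goodF4.XS F (fun s => SF4 s = true) := by
    intro L hL
    unfold Good.ordP
    apply Subgroup.list_prod_mem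
    intro z hz
    obtain ⟨a, ha, rfl⟩ := List.mem_map.1 hz
    exact goodF4.xg_mem (S := fun s => SF4 s = true) (hL a ha) _
  exact Subgroup.mul_mem _ (Subgroup.mul_mem _ (Subgroup.mul_mem _ (goodF4.xg_mem (S := fun s => SF4 s = true) (by decide) _) (hmem _ (by decide)))
    (goodF4.xg_mem (S := fun s => SF4 s = true) (by decide) _)) (hmem _ (by decide))

theorem G2_main [CharP F 2] {t : GL chevG2.Idx F} (ht : (t : Matrix chevG2.Idx chevG2.Idx F) = chevG2.x F 9 1) :
    chevG2.group F ⊓ Subgroup.centralizer {t} = goodG2.XS F (fun s => SG2 s = true) := by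
  have h1 := (mixChk_spec goodG2 mxG2).main (F := F) sG2 (by
    intro c hc i hi hne
    have h2 := hc 9 (by decide)
    have hr : chevG2.rank = 2 := rfl
    unfold Good.hcf at h2
    rw [hr, Finset.prod_range_succ, Finset.prod_range_succ, Finset.prod_range_zero] at h2
    have e0 : chevG2.cartan 0 9 = 1 := by decide +kernel
    have e1 : chevG2.cartan 1 9 = 0 := by decide +kernel
    rw [e0, e1, zpow_one, _root_.zpow_zero, one_mul, mul_one] at h2
    rw [hr] at hi
    interval_cases i
    · exact h2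
    · exact absurd (by decide +kernel) hne) G2_U
  have ht' : t = tel goodG2 [9] (fun _ => (1 : F)) := by
    rw [(goodG2.eq_xg_iff 9 1 t).1 ht]
    unfold tel; rw [List.map_cons, List.map_nil, List.prod_cons, List.prod_nil, mul_one]
  rw [ht', goodG2.group_eq]
  exact h1

theorem F4_main [CharP F 2] {t : GL chevF4.Idx F} (ht : (t : Matrix chevF4.Idx chevF4.Idx F) = chevF4.x F 39 1 * chevF4.x F 45 1) :
    chevF4.group F ⊓ Subgroup.centralizer {t} = goodF4.XS F (fun s => SF4 s = true) := by
  have h1 := (mixChk_spec goodF4 mxF4).main (F := F) sF4 (by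
    intro c hc i hi hne
    have h2 := hc 39 (by decide)
    have h3 := hc 45 (by decide)
    have hr : chevF4.rank = 4 := rfl
    unfold Good.hcf at h2 h3
    rw [hr, Finset.prod_range_succ, Finset.prod_range_succ, Finset.prod_range_succ, Finset.prod_range_succ, Finset.prod_range_zero] at h2 h3
    have e0 : chevF4.cartan 0 39 = 0 := by decide +kernel
    have e1 : chevF4.cartan 1 39 = -1 := by decide +kernel
    have e2 : chevF4.cartan 2 39 = 1 := by decide +kernel
    have e3 : chevF4.cartan 3 39 = 0 := by decide +kernel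
    have f0 : chevF4.cartan 0 45 = 0 := by decide +kernel
    have f1 : chevF4.cartan 1 45 = 2 := by decide +kernel
    have f2 : chevF4.cartan 2 45 = -1 := by decide +kernel
    have f3 : chevF4.cartan 3 45 = 0 := by decide +kernel
    rw [e0, e1, e2, e3, _root_.zpow_zero, _root_.zpow_zero, one_mul, one_mul, mul_one, zpow_one, zpow_neg, zpow_one] at h2
    rw [f0, f1, f2, f3, _root_.zpow_zero, _root_.zpow_zero, one_mul, one_mul, mul_one, zpow_neg, zpow_one] at h3
    have h4 : c 2 = c 1 := by rw [← mul_one (c 1), ← h2]; group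
    rw [h4] at h3
    have h5 : c 1 = 1 := by rw [← h3]; group
    rw [hr] at hi
    interval_cases i
    · exact absurd (by decide +kernel) hne
    · exact h5
    · rw [h4]; exact h5
    · exact absurd (by decide +kernel) hne) F4_U
  have ht' : t = tel goodF4 [39, 45] (fun _ => (1 : F)) := by
    have h2 : tel goodF4 [39, 45] (fun _ => 1) = goodF4.xg 39 (1 : F) * goodF4.xg 45 (1 : F) := by
      unfold tel; rw [List.map_cons, List.map_cons, List.map_nil, List.prod_cons, List.prod_cons, List.prod_nil, mul_one]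
    rw [h2]
    apply Units.ext
    rw [ht, Units.val_mul, goodF4.x_eq_xg, goodF4.x_eq_xg]
  rw [ht', goodF4.group_eq]
  exact h1

theorem F4_main' [CharP F 2] {t : GL chevF4.Idx F} (ht : (t : Matrix chevF4.Idx chevF4.Idx F) = chevF4.x F 47 1 * chevF4.x F 44 1) :
    chevF4.group F ⊓ Subgroup.centralizer {t} = goodF4.XS F (fun s => SF4' s = true) := by
  have h1 := (mixChk_spec goodF4 mxF4').main (F := F) sF4' (by
    intro c hc i hi hne
    have h2 := hc 47 (by decide)
    have h3 := hc 44 (by decide)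
    have hr : chevF4.rank = 4 := rfl
    unfold Good.hcf at h2 h3
    rw [hr, Finset.prod_range_succ, Finset.prod_range_succ, Finset.prod_range_succ, Finset.prod_range_succ, Finset.prod_range_zero] at h2 h3
    have e0 : chevF4.cartan 0 47 = 0 := by decide +kernel
    have e1 : chevF4.cartan 1 47 = 0 := by decide +kernel
    have e2 : chevF4.cartan 2 47 = 0 := by decide +kernel
    have e3 : chevF4.cartan 3 47 = 1 := by decide +kernel
    have f0 : chevF4.cartan 0 44 = 1 := by decide +kernel
    have f1 : chevF4.cartan 1 44 = 0 := by decide +kernel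
    have f2 : chevF4.cartan 2 44 = 0 := by decide +kernel
    have f3 : chevF4.cartan 3 44 = 0 := by decide +kernel
    rw [e0, e1, e2, e3, _root_.zpow_zero, _root_.zpow_zero, _root_.zpow_zero, one_mul, one_mul, one_mul, one_mul, zpow_one] at h2
    rw [f0, f1, f2, f3, _root_.zpow_zero, _root_.zpow_zero, _root_.zpow_zero, one_mul, mul_one, mul_one, mul_one, zpow_one] at h3
    rw [hr] at hi
    interval_cases i
    · exact h3
    · exact absurd (by decide +kernel) hne
    · exact absurd (by decide +kernel) hne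
    · exact h2) (fun y hy _ => goodF4.XS_mono (fun s hs hs' => by
      have hs'' : 24 ≤ s := hs'
      unfold SF4'
      rw [Bool.or_eq_true, decide_eq_true_eq]
      exact Or.inl hs'') hy)
  have ht' : t = tel goodF4 [47, 44] (fun _ => (1 : F)) := by
    have h2 : tel goodF4 [47, 44] (fun _ => 1) = goodF4.xg 47 (1 : F) * goodF4.xg 44 (1 : F) := by
      unfold tel; rw [List.map_cons, List.map_cons, List.map_nil, List.prod_cons, List.prod_cons, List.prod_nil, mul_one]
    rw [h2]
    apply Units.ext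
    rw [ht, Units.val_mul, goodF4.x_eq_xg, goodF4.x_eq_xg]
  rw [ht', goodF4.group_eq]
  exact h1

end Chv
end CfsgH6
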