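import Cfsg.Agent.H6.Sl30
set_option autoImplicit false

namespace CfsgH6
open Cfsg CfsgH4

namespace MG
variable {G : Type*} [Group G] {F : Type*} [Field F] (M : MG G F)
variable [Fintype F] [DecidableEq F] [Fintype G] (hM : M.IsSL)

include hM in
theorem order_unip (p : ℕ) [hp : Fact p.Prime] [CharP F p] {g : G} (hs : ¬ M.Sc g) (ht : M.tr g ^ 2 = 4) :
    orderOf (QuotientGroup.mk' (Subgroup.center G) g) = p := by
  have hup : ∀ x : F, M.u x ^ p = 1 := by
    intro x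
    rw [u_pow, CharP.cast_eq_zero, zero_mul, u_zero]
  have hng : QuotientGroup.mk' (Subgroup.center G) M.ng = 1 := M.mk_one_iff.2 M.Sc_ng
  have hunip : ∀ g : G, ¬ M.Sc g → M.tr g = 2 → orderOf (QuotientGroup.mk' (Subgroup.center G) g) ∣ p := by
    intro g hs ht
    obtain ⟨x, _, hx⟩ := M.unip_conj_ne (hM g) ht hs
    obtain ⟨c, hc⟩ := isConj_iff.1 hx
    apply orderOf_dvd_of_pow_eq_one
    rw [← map_pow, M.mk_one_iff, ← hc, conj_pow, hup, mul_one, mul_inv_cancel]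
    exact M.Sc_one
  have hdvd : orderOf (QuotientGroup.mk' (Subgroup.center G) g) ∣ p := by
    have h3 : (M.tr g - 2) * (M.tr g + 2) = 0 := by linear_combination ht
    rcases mul_eq_zero.1 h3 with h4 | h4
    · exact hunip g hs (sub_eq_zero.1 h4)
    · have hs' : ¬ M.Sc (M.ng * g) := by
        rintro ⟨e1, e2, e3⟩
        apply hs
        simp only [mul00, mul01, mul10, mul11, ng00, ng01, ng10, ng11] at e1 e2 e3
        refine ⟨by linear_combination -e1, by linear_combination -e2, by linear_combination -e3⟩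
      have h5 := hunip (M.ng * g) hs' (by rw [tr_ng]; linear_combination -h4)
      rwa [map_mul, hng, one_mul] at h5
  rcases (Nat.dvd_prime hp.out).1 hdvd with h | h
  · exact absurd (M.mk_one_iff.1 (orderOf_eq_one_iff.1 h)) hs
  · exact h

include hM in
theorem sq_of_tr_zero {g : G} (ht : M.tr g = 0) : g * g = M.ng := by
  have hd := hM g
  rw [tr] at ht
  rw [dt] at hd
  have h11 : M.m g 1 1 = - M.m g 0 0 := by linear_combination ht
  rw [h11] at hd
  refine M.ext ?_ ?_ ?_ ?_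
  · rw [mul00, ng00]; linear_combination -hd
  · rw [mul01, ng01, h11]; ring
  · rw [mul10, ng10, h11]; ring
  · rw [mul11, ng11, h11]; linear_combination -hd

theorem ng_mul_Sc {g : G} (hs : ¬ M.Sc g) : ¬ M.Sc (M.ng * g) := by
  rintro ⟨e1, e2, e3⟩
  apply hs
  simp only [mul00, mul01, mul10, mul11, ng00, ng01, ng10, ng11] at e1 e2 e3
  refine ⟨by linear_combination -e1, by linear_combination -e2, by linear_combination -e3⟩

/-- the trace of `a⁻¹ g` -/
theorem tr_inv_mul {a : G} (ha : M.dt a = 1) (g : G) : M.tr (a⁻¹ * g) =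
    M.m a 1 1 * M.m g 0 0 - M.m a 0 1 * M.m g 1 0 - M.m a 1 0 * M.m g 0 1 + M.m a 0 0 * M.m g 1 1 := by
  have hdt : (M.dt a)⁻¹ = 1 := by rw [ha, inv_one]
  rw [tr]
  simp only [mul00, mul11, inv00, inv01, inv10, inv11, hdt]
  ring

include hM in
theorem exists_factor_conj {t : F} {g h : G} (hgh : IsConj g h) (h1 : ∃ a : G, M.tr a = t ∧ M.tr (a⁻¹ * g) = t) :
    ∃ a : G, M.tr a = t ∧ M.tr (a⁻¹ * h) = t := by
  obtain ⟨c, rfl⟩ := isConj_iff.1 hgh
  obtain ⟨a, ha1, ha2⟩ := h1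
  refine ⟨c * a * c⁻¹, ?_, ?_⟩
  · rw [← ha1]; exact (M.tr_conj (isConj_iff.2 ⟨c, rfl⟩)).symm
  · rw [← ha2]
    refine (M.tr_conj (isConj_iff.2 ⟨c, ?_⟩)).symm
    group

include hM in
theorem exists_factor_odd (hodd : Odd (Fintype.card F)) {t : F} (ht : t ≠ 0) {g : G} (hs : ¬ M.Sc g) (hg2 : M.tr g ≠ 2) :
    ∃ a : G, M.tr a = t ∧ M.tr (a⁻¹ * g) = t := by
  have h2 := two_ne_of_odd hodd
  by_cases hs4 : M.tr g ^ 2 = 4
  · have h3 : (M.tr g - 2) * (M.tr g + 2) = 0 := by linear_combination hs4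
    have h4 := (mul_eq_zero.1 h3).resolve_left (sub_ne_zero.2 hg2)
    obtain ⟨y, hy, hconj⟩ := M.unip_conj_ne (hM (M.ng * g)) (by rw [tr_ng]; linear_combination -h4) (M.ng_mul_Sc hs)
    have hconj' : IsConj (M.ng * M.u y) g := by
      obtain ⟨c, hc⟩ := isConj_iff.1 hconj
      refine isConj_iff.2 ⟨c, ?_⟩
      have e : c * (M.ng * M.u y) * c⁻¹ = M.ng * (c * M.u y * c⁻¹) := by
        rw [← mul_assoc, ← M.ng_comm c, mul_assoc, mul_assoc, mul_assoc]
      rw [e, hc, ← mul_assoc, ng_mul_ng, one_mul]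
    refine M.exists_factor_conj hM hconj' ?_
    have hk : 2 * t / y ≠ 0 := div_ne_zero (mul_ne_zero h2 ht) hy
    obtain ⟨a, ha⟩ := M.ex1 !![t, -(2 * t / y)⁻¹; 2 * t / y, 0] (by
      rw [Matrix.det_fin_two]
      show t * 0 - (-(2 * t / y)⁻¹) * (2 * t / y) = 1
      rw [mul_zero, zero_sub, neg_mul, neg_neg, inv_mul_cancel₀ hk])
    have a00 : M.m a 0 0 = t := by rw [ha]; rfl
    have a01 : M.m a 0 1 = -(2 * t / y)⁻¹ := by rw [ha]; rfl
    have a10 : M.m a 1 0 = 2 * t / y := by rw [ha]; rfl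
    have a11 : M.m a 1 1 = 0 := by rw [ha]; rfl
    refine ⟨a, by rw [tr, a00, a11, add_zero], ?_⟩
    rw [M.tr_inv_mul (hM a), a00, a01, a10, a11]
    simp only [mul00, mul01, mul10, mul11, ng00, ng01, ng10, ng11, u00, u01, u10, u11]
    field_simp
    ring
  · obtain ⟨c, hc⟩ := M.ex_cpt (M.tr g)
    have c00 : M.m c 0 0 = 0 := by rw [hc]; rfl
    have c01 : M.m c 0 1 = -1 := by rw [hc]; rfl
    have c10 : M.m c 1 0 = 1 := by rw [hc]; rfl
    have c11 : M.m c 1 1 = M.tr g := by rw [hc]; rfl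
    have hcg : IsConj c g := (M.conj_SL_reg hM hodd hs4 c00 c01 c10 c11).symm
    refine M.exists_factor_conj hM hcg ?_
    set s := M.tr g with hsdef
    have hs2 : 2 + s ≠ 0 := by
      intro h
      apply hs4
      linear_combination (s - 2) * h
    obtain ⟨x, y, hxy⟩ := univ_form hodd hs4 (t * (t / (2 + s)) - 1)
    set κ := t / (2 + s) with hκ
    have hκ' : κ * (2 + s) = t := by rw [hκ]; field_simp
    have hconic : (x + κ) ^ 2 + s * (x + κ) * (y + κ) + (y + κ) ^ 2 - t * (x + κ) - t * (y + κ) + 1 = 0 := by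
      linear_combination hxy + (x + y + κ) * hκ'
    obtain ⟨a, ha⟩ := M.ex1 !![x + κ, (x + κ) * s + (y + κ) - t; y + κ, t - (x + κ)] (by
      rw [Matrix.det_fin_two]
      show (x + κ) * (t - (x + κ)) - ((x + κ) * s + (y + κ) - t) * (y + κ) = 1
      linear_combination -hconic)
    have a00 : M.m a 0 0 = x + κ := by rw [ha]; rfl
    have a01 : M.m a 0 1 = (x + κ) * s + (y + κ) - t := by rw [ha]; rfl
    have a10 : M.m a 1 0 = y + κ := by rw [ha]; rfl
    have a11 : M.m a 1 1 = t - (x + κ) := by rw [ha]; rfl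
    refine ⟨a, by rw [tr, a00, a11]; ring, ?_⟩
    rw [M.tr_inv_mul (hM a), a00, a01, a10, a11, c00, c01, c10, c11]
    ring

include hM in
theorem thompson_odd (p : ℕ) [hp : Fact p.Prime] [CharP F p] (hodd : Odd (Fintype.card F))
    (x : G ⧸ Subgroup.center G) (hx2 : 2 < orderOf x) (hxp : ¬ p ∣ orderOf x) :
    ∀ g : G ⧸ Subgroup.center G, g ≠ 1 → ∃ u v : G ⧸ Subgroup.center G, g = (u * x * u⁻¹) * (v * x * v⁻¹) := by
  have h2 := two_ne_of_odd hodd
  obtain ⟨X, rfl⟩ := QuotientGroup.mk'_surjective _ x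
  have hng : QuotientGroup.mk' (Subgroup.center G) M.ng = 1 := M.mk_one_iff.2 M.Sc_ng
  have hXs : ¬ M.Sc X := by
    intro h
    rw [M.mk_one_iff.2 h, orderOf_one] at hx2
    omega
  have hX0 : M.tr X ≠ 0 := by
    intro h
    have h1 := M.sq_of_tr_zero hM h
    have h3 : (QuotientGroup.mk' (Subgroup.center G) X) ^ 2 = 1 := by
      rw [sq, ← map_mul, h1, hng]
    have := Nat.le_of_dvd (by norm_num) (orderOf_dvd_of_pow_eq_one h3)
    omega
  have hX4 : M.tr X ^ 2 ≠ 4 := by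
    intro h
    apply hxp
    rw [M.order_unip hM p hXs h]
  intro g hg
  obtain ⟨g₀, rfl⟩ := QuotientGroup.mk'_surjective _ g
  have hgs : ¬ M.Sc g₀ := fun h => hg (M.mk_one_iff.2 h)
  have hmain : ∀ h : G, ¬ M.Sc h → M.tr h ≠ 2 → ∃ u v : G ⧸ Subgroup.center G,
      QuotientGroup.mk' (Subgroup.center G) h = (u * QuotientGroup.mk' (Subgroup.center G) X * u⁻¹) *
        (v * QuotientGroup.mk' (Subgroup.center G) X * v⁻¹) := by
    intro h hs ht
    obtain ⟨a, ha1, ha2⟩ := M.exists_factor_odd hM hodd hX0 hs ht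
    obtain ⟨u, hu⟩ := isConj_iff.1 (M.conj_SL_tr hM hodd hX4 ha1.symm)
    obtain ⟨v, hv⟩ := isConj_iff.1 (M.conj_SL_tr hM hodd hX4 ha2.symm)
    refine ⟨QuotientGroup.mk' _ u, QuotientGroup.mk' _ v, ?_⟩
    rw [← map_inv, ← map_inv, ← map_mul, ← map_mul, ← map_mul, ← map_mul, ← map_mul, hu, hv, mul_inv_cancel_left]
  by_cases ht : M.tr g₀ = 2
  · have h1 := hmain (M.ng * g₀) (M.ng_mul_Sc hgs) (by
      rw [tr_ng, ht]
      intro h
      apply h2
      have : (2 : F) * 2 = 0 := by linear_combination -h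
      exact mul_self_eq_zero.1 this)
    rwa [map_mul, hng, one_mul] at h1
  · exact hmain g₀ hgs ht

section Even
variable (h2 : (2 : F) = 0)

include hM h2 in
theorem conj_even {g h : G} (hg : M.tr g ≠ 0) (hh : M.tr g = M.tr h) : IsConj g h := by
  haveI : CharP F 2 := CharTwo.of_one_ne_zero_of_two_eq_zero one_ne_zero h2
  have key : ∀ g : G, M.tr g ≠ 0 → ∀ c : G, M.m c 0 0 = 0 → M.m c 0 1 = -1 → M.m c 1 0 = 1 → M.m c 1 1 = M.tr g → IsConj g c := by
    intro g hg c c00 c01 c10 c11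
    have hgs : ¬ M.Sc g := by
      rintro ⟨_, _, h3⟩
      apply hg
      rw [tr, h3]; linear_combination M.m g 1 1 * h2
    obtain ⟨x, y, hQ⟩ := M.exists_Q_ne hgs
    obtain ⟨s, hs⟩ := FiniteField.isSquare_of_char_two (F := F) (ringChar.eq F 2) (M.Q g x y)
    have hs0 : s ≠ 0 := by rintro rfl; apply hQ; rw [hs, mul_zero]
    refine M.conj_SL (h := c) (x := s⁻¹ * x) (y := s⁻¹ * y) hM ?_ c00 c01 c10 c11
    rw [Q_smul, hs]; field_simp
  obtain ⟨c, hc⟩ := M.ex_cpt (M.tr g)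
  exact (key g hg c (by rw [hc]; rfl) (by rw [hc]; rfl) (by rw [hc]; rfl) (by rw [hc]; rfl)).trans
    (key h (by rw [← hh]; exact hg) c (by rw [hc]; rfl) (by rw [hc]; rfl) (by rw [hc]; rfl) (by rw [hc, ← hh]; rfl)).symm

include hM h2 in
theorem thompson_even [CharP F 2] (x : G ⧸ Subgroup.center G) (hx2 : 2 < orderOf x) (hxq : ¬ orderOf x ∣ Fintype.card F + 1) :
    ∀ g : G ⧸ Subgroup.center G, g ≠ 1 → ∃ u v : G ⧸ Subgroup.center G, g = (u * x * u⁻¹) * (v * x * v⁻¹) := by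
  obtain ⟨X, rfl⟩ := QuotientGroup.mk'_surjective _ x
  have hXs : ¬ M.Sc X := by
    intro h
    rw [M.mk_one_iff.2 h, orderOf_one] at hx2
    omega
  have hX0 : M.tr X ≠ 0 := by
    intro h
    haveI : Fact (Nat.Prime 2) := ⟨Nat.prime_two⟩
    have h1 := M.order_unip hM 2 hXs (by rw [h]; linear_combination -2 * h2)
    omega
  have hXe : ¬ M.Ell X := by
    intro he
    apply hxq
    apply orderOf_dvd_of_pow_eq_one
    have h3 : (⟨X, by rw [mem_cent_single]⟩ : Subgroup.centralizer ({X} : Set G)) ^ Nat.card (Subgroup.centralizer ({X} : Set G)) = 1 :=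
      pow_card_eq_one'
    rw [M.card_cent_ell_even hM h2 he] at h3
    have h4 : X ^ (Fintype.card F + 1) = 1 := congrArg Subtype.val h3
    rw [← map_pow, h4, map_one]
  rw [ell_iff_tr hM] at hXe
  push Not at hXe
  obtain ⟨α, hα⟩ := hXe
  intro g hg
  obtain ⟨g₀, rfl⟩ := QuotientGroup.mk'_surjective _ g
  have hgs : ¬ M.Sc g₀ := fun h => hg (M.mk_one_iff.2 h)
  obtain ⟨c, hc⟩ := M.exists_conj_10 hgs
  have hfac : ∃ a : G, M.tr a = M.tr X ∧ M.tr (a⁻¹ * g₀) = M.tr X := by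
    refine M.exists_factor_conj hM (g := c * g₀ * c⁻¹) (isConj_iff.2 ⟨c⁻¹, by group⟩) ?_
    set g₁ := c * g₀ * c⁻¹
    obtain ⟨a, ha⟩ := M.ex1 !![α, ((M.tr X - α) * M.m g₁ 0 0 + α * M.m g₁ 1 1 - M.tr X) / M.m g₁ 1 0; 0, M.tr X - α] (by
      rw [Matrix.det_fin_two]
      show α * (M.tr X - α) - _ * 0 = 1
      rw [mul_zero, sub_zero]; exact hα)
    have a00 : M.m a 0 0 = α := by rw [ha]; rfl
    have a01 : M.m a 0 1 = ((M.tr X - α) * M.m g₁ 0 0 + α * M.m g₁ 1 1 - M.tr X) / M.m g₁ 1 0 := by rw [ha]; rfl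
    have a10 : M.m a 1 0 = 0 := by rw [ha]; rfl
    have a11 : M.m a 1 1 = M.tr X - α := by rw [ha]; rfl
    refine ⟨a, ?_, ?_⟩
    · show M.m a 0 0 + M.m a 1 1 = _
      rw [a00, a11]; ring
    · rw [M.tr_inv_mul (hM a), a00, a01, a10, a11, div_mul_cancel₀ _ hc]
      ring
  obtain ⟨a, ha1, ha2⟩ := hfac
  obtain ⟨u, hu⟩ := isConj_iff.1 (M.conj_even hM h2 hX0 ha1.symm)
  obtain ⟨v, hv⟩ := isConj_iff.1 (M.conj_even hM h2 hX0 ha2.symm)
  refine ⟨QuotientGroup.mk' _ u, QuotientGroup.mk' _ v, ?_⟩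
  rw [← map_inv, ← map_inv, ← map_mul, ← map_mul, ← map_mul, ← map_mul, ← map_mul, hu, hv, mul_inv_cancel_left]

end Even

end MG

end CfsgH6
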