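import Cfsg.Agent.H6.Sl28
set_option autoImplicit false

namespace CfsgH6
open Cfsg CfsgH4

namespace MG
variable {G : Type*} [Group G] {F : Type*} [Field F] (M : MG G F)

/-- the unipotent subgroup -/
def Uni : Subgroup G where
  carrier := Set.range M.u
  mul_mem' := by
    rintro _ _ ⟨x, rfl⟩ ⟨y, rfl⟩
    exact ⟨x + y, M.u_add x y⟩
  one_mem' := ⟨0, M.u_zero⟩
  inv_mem' := by
    rintro _ ⟨x, rfl⟩
    refine ⟨-x, ?_⟩
    rw [eq_inv_iff_mul_eq_one, ← u_add, neg_add_cancel, u_zero]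

theorem card_Uni : Nat.card M.Uni = Nat.card F := by
  refine (Nat.card_congr (Equiv.ofBijective (fun x : F => (⟨M.u x, x, rfl⟩ : M.Uni)) ⟨?_, ?_⟩)).symm
  · intro x y h
    exact M.u_inj (congrArg Subtype.val h)
  · rintro ⟨_, x, rfl⟩
    exact ⟨x, rfl⟩

variable [Fintype F] [DecidableEq F] [Fintype G] (hM : M.IsSL) (h2 : (2 : F) = 0)

include hM h2 in
theorem aba : ∃ z : G, M.Ell z ∧ ∀ g : G, ∃ a ∈ Subgroup.centralizer ({z} : Set G), ∃ b ∈ M.Uni,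
    ∃ c ∈ Subgroup.centralizer ({z} : Set G), g = a * b * c := by
  haveI : CharP F 2 := CharTwo.of_one_ne_zero_of_two_eq_zero one_ne_zero h2
  have hsqr : ∀ x : F, IsSquare x := FiniteField.isSquare_of_char_two (ringChar.eq F 2)
  obtain ⟨z₀, hz₀⟩ := M.exists_ell hM
  obtain ⟨z, hz⟩ := M.ex1 !![0, 1; 1, M.tr z₀] (by
    rw [Matrix.det_fin_two]
    show (0 : F) * M.tr z₀ - 1 * 1 = 1
    linear_combination -h2)
  have z00 : M.m z 0 0 = 0 := by rw [hz]; rfl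
  have z01 : M.m z 0 1 = 1 := by rw [hz]; rfl
  have z10 : M.m z 1 0 = 1 := by rw [hz]; rfl
  have z11 : M.m z 1 1 = M.tr z₀ := by rw [hz]; rfl
  have htr : M.tr z = M.tr z₀ := by
    show M.m z 0 0 + M.m z 1 1 = _
    rw [z00, z11, zero_add]
  have hze : M.Ell z := ell_conj hM htr.symm hz₀
  set t := M.tr z₀ with ht
  refine ⟨z, hze, fun g => ?_⟩
  -- elements of the torus
  have hA : ∀ x y : F, x ^ 2 + t * x * y + y ^ 2 = 1 → ∃ a ∈ Subgroup.centralizer ({z} : Set G),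
      M.m a 0 0 = x ∧ M.m a 0 1 = y ∧ M.m a 1 0 = y ∧ M.m a 1 1 = x + y * t := by
    intro x y hxy
    obtain ⟨a, ha⟩ := M.ex1 !![x, y; y, x + y * t] (by
      rw [Matrix.det_fin_two]
      show x * (x + y * t) - y * y = 1
      linear_combination hxy - y ^ 2 * h2)
    have a00 : M.m a 0 0 = x := by rw [ha]; rfl
    have a01 : M.m a 0 1 = y := by rw [ha]; rfl
    have a10 : M.m a 1 0 = y := by rw [ha]; rfl
    have a11 : M.m a 1 1 = x + y * t := by rw [ha]; rfl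
    refine ⟨a, ?_, a00, a01, a10, a11⟩
    rw [mem_cent_single]
    refine M.ext ?_ ?_ ?_ ?_
    · rw [mul00, mul00, z00, z01, z10, a00, a01, a10]; ring
    · rw [mul01, mul01, z00, z01, z11, a00, a01, a11]; ring
    · rw [mul10, mul10, z00, z10, z11, a00, a10, a11]; ring
    · rw [mul11, mul11, z01, z10, z11, a01, a10, a11]; ring
  have hdt := hM g
  rw [dt] at hdt
  -- common norm
  obtain ⟨α, hα⟩ := hsqr (M.m g 0 0 ^ 2 + t * M.m g 0 0 * M.m g 1 0 + M.m g 1 0 ^ 2 + 1)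
  obtain ⟨β, hβ⟩ := hsqr (M.m g 0 1 ^ 2 + t * M.m g 0 1 * M.m g 1 1 + M.m g 1 1 ^ 2 + 1)
  have hdiff : ∀ x y : F, α * x + β * y = 0 →
      (M.m g 0 0 * x + M.m g 0 1 * y) ^ 2 + t * (M.m g 0 0 * x + M.m g 0 1 * y) * (M.m g 1 0 * x + M.m g 1 1 * y) +
        (M.m g 1 0 * x + M.m g 1 1 * y) ^ 2 = x ^ 2 + t * x * y + y ^ 2 := by
    intro x y hxy
    linear_combination (α * x + β * y) * hxy + x ^ 2 * hα + y ^ 2 * hβ + (t * x * y) * hdt +
      (M.m g 0 0 * M.m g 0 1 * x * y + M.m g 1 0 * M.m g 1 1 * x * y + t * M.m g 0 1 * M.m g 1 0 * x * y - x ^ 2 - y ^ 2 - α * β * x * y) * h2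
  obtain ⟨x₀, y₀, hne, hxy₀⟩ : ∃ x y : F, ¬ (x = 0 ∧ y = 0) ∧ α * x + β * y = 0 := by
    by_cases h : α = 0 ∧ β = 0
    · exact ⟨1, 0, fun h' => one_ne_zero h'.1, by rw [h.1, h.2]; ring⟩
    · exact ⟨β, -α, fun h' => h ⟨neg_eq_zero.1 h'.2, h'.1⟩, by ring⟩
  have hN := hze.norm_ne hne
  rw [hM z, htr, one_mul] at hN
  obtain ⟨s, hs⟩ := hsqr (x₀ ^ 2 + t * x₀ * y₀ + y₀ ^ 2)
  have hs0 : s ≠ 0 := by rintro rfl; apply hN; rw [hs, mul_zero]
  set x := s⁻¹ * x₀ with hx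
  set y := s⁻¹ * y₀ with hy
  have hxy : α * x + β * y = 0 := by
    rw [hx, hy]; linear_combination s⁻¹ * hxy₀
  have hN1 : x ^ 2 + t * x * y + y ^ 2 = 1 := by
    have e : x ^ 2 + t * x * y + y ^ 2 = (s⁻¹ * s⁻¹) * (x₀ ^ 2 + t * x₀ * y₀ + y₀ ^ 2) := by rw [hx, hy]; ring
    rw [e, hs]; field_simp
  obtain ⟨c, hc, c00, c01, c10, c11⟩ := hA x y hN1
  obtain ⟨a, ha, a00, a01, a10, a11⟩ := hA (M.m g 0 0 * x + M.m g 0 1 * y) (M.m g 1 0 * x + M.m g 1 1 * y)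
    (by rw [hdiff x y hxy, hN1])
  refine ⟨a, ha, a⁻¹ * g * c, ?_, c⁻¹, Subgroup.inv_mem _ hc, by group⟩
  -- the middle factor fixes the first basis vector
  set b := a⁻¹ * g * c with hb
  have hab : a * b = g * c := by rw [hb]; group
  have e00 := congrArg (fun g => M.m g 0 0) hab
  have e10 := congrArg (fun g => M.m g 1 0) hab
  simp only [mul00, mul10] at e00 e10
  rw [c00, c10] at e00 e10
  have hda := hM a
  have hdb := hM b
  rw [dt] at hda hdb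
  rw [← a00] at e00
  rw [← a10] at e10
  have b00 : M.m b 0 0 = 1 := by
    linear_combination M.m a 1 1 * e00 - M.m a 0 1 * e10 + (1 - M.m b 0 0) * hda
  have b10 : M.m b 1 0 = 0 := by
    linear_combination M.m a 0 0 * e10 - M.m a 1 0 * e00 - M.m b 1 0 * hda
  rw [b00, b10] at hdb
  exact ⟨M.m b 0 1, M.ext (by rw [u00, b00]) (by rw [u01]) (by rw [u10, b10]) (by rw [u11]; linear_combination -hdb)⟩

include hM h2 in
theorem aba' : ∃ A B : Subgroup (G ⧸ Subgroup.center G),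
      IsCyclic A ∧ Nat.card A = Fintype.card F + 1 ∧ IsMulCommutative B ∧ (∀ b ∈ B, b * b = 1) ∧
        Nat.card B = Fintype.card F ∧
        ∀ g : G ⧸ Subgroup.center G, ∃ a ∈ A, ∃ b ∈ B, ∃ c ∈ A, g = a * b * c := by
  obtain ⟨z, hz, habc⟩ := M.aba hM h2
  set φ := QuotientGroup.mk' (Subgroup.center G) with hφ
  have hinj : Function.Injective φ := by
    rw [injective_iff_map_eq_one]
    intro x hx
    rw [hφ, QuotientGroup.mk'_apply, QuotientGroup.eq_one_iff] at hx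
    exact M.Sc_even hM h2 (M.Sc_of_center hx)
  haveI := M.cyclic_cent hM (M.ell_tr_even hM h2 hz)
  refine ⟨(Subgroup.centralizer ({z} : Set G)).map φ, M.Uni.map φ, ?_, ?_, ?_, ?_, ?_, ?_⟩
  · exact isCyclic_of_surjective (φ.subgroupMap (Subgroup.centralizer ({z} : Set G))) (φ.subgroupMap_surjective _)
  · rw [← Nat.card_congr ((Subgroup.centralizer ({z} : Set G)).equivMapOfInjective φ hinj).toEquiv, M.card_cent_ell_even hM h2 hz]
  · refine ⟨⟨?_⟩⟩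
    rintro ⟨_, _, ⟨x, rfl⟩, rfl⟩ ⟨_, _, ⟨y, rfl⟩, rfl⟩
    apply Subtype.ext
    show φ (M.u x) * φ (M.u y) = φ (M.u y) * φ (M.u x)
    rw [← map_mul, ← map_mul, ← u_add, ← u_add, add_comm]
  · rintro _ ⟨_, ⟨x, rfl⟩, rfl⟩
    rw [← map_mul, ← u_add, show x + x = 0 by linear_combination x * h2, u_zero, map_one]
  · rw [← Nat.card_congr (M.Uni.equivMapOfInjective φ hinj).toEquiv, M.card_Uni, Nat.card_eq_fintype_card]
  · intro g'
    obtain ⟨g, rfl⟩ := QuotientGroup.mk'_surjective _ g'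
    obtain ⟨a, ha, b, hb, c, hc, h⟩ := habc g
    refine ⟨φ a, ⟨a, ha, rfl⟩, φ b, ⟨b, hb, rfl⟩, φ c, ⟨c, hc, rfl⟩, ?_⟩
    rw [← map_mul, ← map_mul, ← h]

end MG

end CfsgH6
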