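import Cfsg.Agent.H6.Sl27
import Cfsg.Prelude.Def_LocalEven
import Cfsg.Prelude.Def_PLocal
set_option autoImplicit false

namespace CfsgH6
open Cfsg CfsgH4

namespace MG
variable {G : Type*} [Group G] {F : Type*} [Field F] (M : MG G F)
variable [Fintype F] [DecidableEq F] [Fintype G] (hM : M.IsSL)

include hM in
/-- subgroups of odd prime power order of the projective group are abelian -/
theorem pgroup_comm {p : ℕ} [hp : Fact p.Prime] (hp2 : p ≠ 2) (P : Subgroup (G ⧸ Subgroup.center G)) (hP : IsPGroup p P) :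
    ∀ x ∈ P, ∀ y ∈ P, x * y = y * x := by
  have hpodd : Odd p := hp.out.odd_of_ne_two hp2
  by_cases hbot : P = ⊥
  · intro x hx y hy
    rw [hbot, Subgroup.mem_bot] at hx hy
    rw [hx, hy]
  haveI : Nontrivial P := (Subgroup.nontrivial_iff_ne_bot P).2 hbot
  haveI : Nontrivial (Subgroup.center P) := hP.center_nontrivial
  obtain ⟨z', hz'⟩ := exists_ne (1 : Subgroup.center P)
  set z : G ⧸ Subgroup.center G := ((z' : P) : G ⧸ Subgroup.center G) with hzdef
  have hz1 : z ≠ 1 := fun h => hz' (Subtype.ext (Subtype.ext h))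
  have hzc : ∀ y ∈ P, z * y = y * z := by
    intro y hy
    have := (Subgroup.mem_center_iff.1 z'.2) ⟨y, hy⟩
    exact (congrArg Subtype.val this).symm
  obtain ⟨Z, hZ⟩ := QuotientGroup.mk'_surjective _ z
  have hZs : ¬ M.Sc Z := by
    intro h
    apply hz1
    rw [← hZ, QuotientGroup.mk'_apply, QuotientGroup.eq_one_iff]
    exact M.center_of_Sc h
  have key : ∀ Y : G, QuotientGroup.mk' (Subgroup.center G) Y ∈ P → Y ∈ Subgroup.centralizer ({Z} : Set G) := by
    intro Y hY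
    have h1 : Y ∈ (Subgroup.centralizer ({(QuotientGroup.mk' (Subgroup.center G) Z)} : Set (G ⧸ Subgroup.center G))).comap
      (QuotientGroup.mk' (Subgroup.center G)) := by
      rw [Subgroup.mem_comap, mem_cent_single, hZ]
      exact hzc _ hY
    have h2 : Y * Y ∈ Subgroup.centralizer ({Z} : Set G) := by
      have e : Y * Y * Z * (Y * Y)⁻¹ = Y * (Y * Z * Y⁻¹) * Y⁻¹ := by group
      have h3 : Y * Y * Z * (Y * Y)⁻¹ = Z := by
        rw [e]
        rcases (M.mem_H hM).1 h1 with h | h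
        · rw [h, h]
        · rw [h, ← mul_assoc, ← M.ng_comm Y, mul_assoc, mul_assoc, ← mul_assoc Y, h, ← mul_assoc, ng_mul_ng, one_mul]
      rw [mem_cent_single]
      have := congrArg (fun t => t * (Y * Y)) h3
      simp only [inv_mul_cancel_right] at this
      exact this.symm
    obtain ⟨k, hk⟩ := hP ⟨_, hY⟩
    have hk' : (QuotientGroup.mk' (Subgroup.center G) Y) ^ (p ^ k) = 1 := congrArg Subtype.val hk
    obtain ⟨m, hm⟩ := hpodd.pow (n := k)
    rw [← map_pow, QuotientGroup.mk'_apply, QuotientGroup.eq_one_iff] at hk'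
    have h4 : Y ^ (p ^ k) ∈ Subgroup.centralizer ({Z} : Set G) := Subgroup.center_le_centralizer _ hk'
    rw [hm, pow_succ, pow_mul, sq] at h4
    exact (Subgroup.mul_mem_cancel_left _ (Subgroup.pow_mem _ h2 m)).1 h4
  intro x hx y hy
  obtain ⟨X, rfl⟩ := QuotientGroup.mk'_surjective _ x
  obtain ⟨Y, rfl⟩ := QuotientGroup.mk'_surjective _ y
  rw [← map_mul, ← map_mul, M.cent_comm hZs (key X hx) (key Y hy)]

end MG

/-! ### A nonabelian `p`-subgroup of `Qd(p)` -/

section Qd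
variable {p : ℕ} [hp : Fact p.Prime]

/-- upper unitriangular shape -/
def UT3 (A : Matrix (Fin 3) (Fin 3) (ZMod p)) : Prop :=
  A 0 0 = 1 ∧ A 1 0 = 0 ∧ A 1 1 = 1 ∧ A 2 0 = 0 ∧ A 2 1 = 0 ∧ A 2 2 = 1

theorem UT3.eq {A : Matrix (Fin 3) (Fin 3) (ZMod p)} (h : UT3 A) : A = !![1, A 0 1, A 0 2; 0, 1, A 1 2; 0, 0, 1] := by
  obtain ⟨h1, h2, h3, h4, h5, h6⟩ := h
  ext i j
  fin_cases i <;> fin_cases j <;> simp [h1, h2, h3, h4, h5, h6]

theorem UT3.mul {A B : Matrix (Fin 3) (Fin 3) (ZMod p)} (hA : UT3 A) (hB : UT3 B) : UT3 (A * B) := by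
  obtain ⟨a1, a2, a3, a4, a5, a6⟩ := hA
  obtain ⟨b1, b2, b3, b4, b5, b6⟩ := hB
  refine ⟨?_, ?_, ?_, ?_, ?_, ?_⟩ <;>
    simp [Matrix.mul_apply, Fin.sum_univ_three, a1, a2, a3, a4, a5, a6, b1, b2, b3, b4, b5, b6]

theorem UT3.one : UT3 (1 : Matrix (Fin 3) (Fin 3) (ZMod p)) := by
  refine ⟨?_, ?_, ?_, ?_, ?_, ?_⟩ <;> simp

theorem UT3.pow_p (hp2 : p ≠ 2) {A : Matrix (Fin 3) (Fin 3) (ZMod p)} (hA : UT3 A) : A ^ p = 1 := by
  have hN : A = 1 + !![0, A 0 1, A 0 2; 0, 0, A 1 2; 0, 0, 0] := by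
    conv_lhs => rw [hA.eq]
    ext i j
    fin_cases i <;> fin_cases j <;> simp
  have hN3 : (!![0, A 0 1, A 0 2; 0, 0, A 1 2; 0, 0, 0] : Matrix (Fin 3) (Fin 3) (ZMod p)) ^ 3 = 0 := by
    ext i j
    fin_cases i <;> fin_cases j <;> simp [pow_succ, Matrix.mul_apply, Fin.sum_univ_three]
  have h3 : 3 ≤ p := by
    have := hp.out.two_le
    omega
  have hNp : (!![0, A 0 1, A 0 2; 0, 0, A 1 2; 0, 0, 0] : Matrix (Fin 3) (Fin 3) (ZMod p)) ^ p = 0 :=
    pow_eq_zero_of_le h3 hN3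
  haveI : CharP (Matrix (Fin 3) (Fin 3) (ZMod p)) p := inferInstance
  conv_lhs => rw [hN]
  rw [add_pow_char_of_commute _ (Commute.one_left _), one_pow, hNp, add_zero]

theorem not_involves_qd (hp2 : p ≠ 2) {Γ : Type*} [Group Γ] [Finite Γ]
    (hΓ : ∀ P : Subgroup Γ, IsPGroup p P → ∀ x ∈ P, ∀ y ∈ P, x * y = y * x) : ¬ Cfsg.Involves ↥(Cfsg.qd p) Γ := by
  rintro ⟨K, R, hR, ⟨e⟩⟩
  haveI := hR
  set f : K →* Cfsg.qd p := e.toMonoidHom.comp (QuotientGroup.mk' (R.subgroupOf K)) with hf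
  have hfs : Function.Surjective f := e.surjective.comp (QuotientGroup.mk'_surjective _)
  haveI : Finite (Cfsg.qd p) := Finite.of_surjective f hfs
  -- the unitriangular group
  let W : Subgroup (Cfsg.qd p) :=
    { carrier := {g | UT3 ((g : Matrix.SpecialLinearGroup (Fin 3) (ZMod p)) : Matrix (Fin 3) (Fin 3) (ZMod p))}
      mul_mem' := by
        intro a b ha hb
        exact UT3.mul ha hb
      one_mem' := UT3.one
      inv_mem' := by
        intro a ha
        have h1 : a ^ p = 1 := by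
          apply Subtype.ext
          apply Subtype.ext
          have := UT3.pow_p hp2 ha
          simpa using this
        have h2 : a⁻¹ = a ^ (p - 1) := by
          apply inv_eq_of_mul_eq_one_right
          rw [← pow_succ', Nat.sub_add_cancel hp.out.one_le, h1]
        rw [h2]
        have h3 : ∀ n : ℕ, UT3 (((a ^ n : Cfsg.qd p) : Matrix.SpecialLinearGroup (Fin 3) (ZMod p)) : Matrix (Fin 3) (Fin 3) (ZMod p)) := by
          intro n
          induction n with
          | zero => rw [pow_zero]; exact UT3.one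
          | succ n ih => rw [pow_succ]; exact UT3.mul ih ha
        exact h3 _ }
  have hW : IsPGroup p W := by
    rintro ⟨a, ha⟩
    refine ⟨1, ?_⟩
    rw [pow_one]
    apply Subtype.ext
    apply Subtype.ext
    apply Subtype.ext
    have := UT3.pow_p hp2 ha
    simpa using this
  obtain ⟨T, hT⟩ := hW.exists_le_sylow
  obtain ⟨S, hS⟩ := Sylow.mapSurjective_surjective hfs p T
  have hSab : ∀ x ∈ (S : Subgroup K), ∀ y ∈ (S : Subgroup K), x * y = y * x := by
    intro x hx y hy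
    have h1 : IsPGroup p ((S : Subgroup K).map K.subtype) := S.isPGroup'.map _
    exact Subtype.ext (hΓ _ h1 x ⟨x, hx, rfl⟩ y ⟨y, hy, rfl⟩)
  have hTab : ∀ x ∈ (T : Subgroup (Cfsg.qd p)), ∀ y ∈ (T : Subgroup (Cfsg.qd p)), x * y = y * x := by
    intro x hx y hy
    rw [← hS, Sylow.coe_mapSurjective] at hx hy
    obtain ⟨x', hx', rfl⟩ := hx
    obtain ⟨y', hy', rfl⟩ := hy
    rw [← map_mul, ← map_mul, hSab x' hx' y' hy']
  let a : Matrix.SpecialLinearGroup (Fin 3) (ZMod p) := ⟨!![1, 1, 0; 0, 1, 0; 0, 0, 1], by simp [Matrix.det_fin_three]⟩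
  let b : Matrix.SpecialLinearGroup (Fin 3) (ZMod p) := ⟨!![1, 0, 0; 0, 1, 1; 0, 0, 1], by simp [Matrix.det_fin_three]⟩
  have ha : a ∈ Cfsg.qd p := Subgroup.subset_closure ⟨by simp [a], by simp [a], by simp [a]⟩
  have hb : b ∈ Cfsg.qd p := Subgroup.subset_closure ⟨by simp [b], by simp [b], by simp [b]⟩
  have haW : (⟨a, ha⟩ : Cfsg.qd p) ∈ W := ⟨by simp [a], by simp [a], by simp [a], by simp [a], by simp [a], by simp [a]⟩
  have hbW : (⟨b, hb⟩ : Cfsg.qd p) ∈ W := ⟨by simp [b], by simp [b], by simp [b], by simp [b], by simp [b], by simp [b]⟩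
  have h1 := hTab _ (hT haW) _ (hT hbW)
  have h2 : (a : Matrix (Fin 3) (Fin 3) (ZMod p)) * (b : Matrix (Fin 3) (Fin 3) (ZMod p)) =
      (b : Matrix (Fin 3) (Fin 3) (ZMod p)) * (a : Matrix (Fin 3) (Fin 3) (ZMod p)) :=
    congrArg (fun g : Cfsg.qd p => ((g : Matrix.SpecialLinearGroup (Fin 3) (ZMod p)) : Matrix (Fin 3) (Fin 3) (ZMod p))) h1
  have h3 := congrFun (congrFun h2 0) 2
  simp [a, b, Matrix.mul_apply, Fin.sum_univ_three] at h3

end Qd

end CfsgH6
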