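import Cfsg.Agent.S2300
import Cfsg.Agent.H6.Sl34
import Cfsg.Agent.H4.Corr
import Cfsg.Prelude.Def_DegreeGraph
set_option autoImplicit false

namespace CfsgH6
open Cfsg CfsgH4

theorem charDegrees_equiv {A B : Type*} [Group A] [Group B] (e : A ≃* B) : charDegrees A = charDegrees B := by
  have key2 : ∀ (d : ℕ), d ∈ charDegrees B → d ∈ charDegrees A := by
    intro d hd
    obtain ⟨χ, hχ⟩ := hd
    have h1 : IsIrrCharacter A (fun b => (χ : B → ℂ) (e b)) :=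
      isIrrCharacter_comp_surj e.toMonoidHom e.surjective χ.2
    refine ⟨⟨_, h1⟩, ?_⟩
    rw [← hχ]
    show ⌊((χ : B → ℂ) (e 1)).re⌋₊ = ⌊((χ : B → ℂ) 1).re⌋₊
    rw [map_one]
  have key3 : ∀ (d : ℕ), d ∈ charDegrees A → d ∈ charDegrees B := by
    intro d hd
    obtain ⟨χ, hχ⟩ := hd
    have h1 : IsIrrCharacter B (fun b => (χ : A → ℂ) (e.symm b)) :=
      isIrrCharacter_comp_surj e.symm.toMonoidHom e.symm.surjective χ.2
    refine ⟨⟨_, h1⟩, ?_⟩
    rw [← hχ]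
    show ⌊((χ : A → ℂ) (e.symm 1)).re⌋₊ = ⌊((χ : A → ℂ) 1).re⌋₊
    rw [map_one]
  exact Set.ext fun d => ⟨key3 d, key2 d⟩

theorem mem_charDegrees {Γ : Type*} [Group Γ] {d : ℕ} :
    d ∈ charDegrees Γ ↔ ∃ χ : IrrCharacter Γ, (χ : Γ → ℂ) 1 = (d : ℂ) := by
  constructor
  · rintro ⟨χ, hχ⟩
    exact ⟨χ, by rw [deg_nat χ.2, hχ]⟩
  · rintro ⟨χ, hχ⟩
    refine ⟨χ, ?_⟩
    rw [deg_nat χ.2] at hχ
    exact_mod_cast hχ

theorem charDegrees_SL_even {F : Type*} [Field F] [Fintype F] [CharP F 2] (h4 : 4 ≤ Fintype.card F) :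
    charDegrees (Matrix.SpecialLinearGroup (Fin 2) F) =
      {1, Fintype.card F - 1, Fintype.card F, Fintype.card F + 1} := by
  classical
  obtain ⟨h1, h2⟩ := Cfsg.Agent.S2300.result (F := F)
  obtain ⟨c1, c2, c3, c4⟩ := h2 h4
  have e2 : ((Fintype.card F : ℂ) - 1) = ((Fintype.card F - 1 : ℕ) : ℂ) := by rw [MG.sub_cast]
  ext d
  rw [mem_charDegrees]
  simp only [Set.mem_insert_iff, Set.mem_singleton_iff]
  constructor
  · rintro ⟨χ, hχ⟩
    rcases h1 χ χ.2 with h | h | h | h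
    · left
      rw [hχ] at h; exact_mod_cast h
    · right; left
      rw [hχ, e2] at h; exact_mod_cast h
    · right; right; left
      rw [hχ] at h; exact_mod_cast h
    · right; right; right
      rw [hχ] at h; exact_mod_cast h
  · have ex : ∀ c : ℂ, Nat.card {χ : Cfsg.IrrCharacter (Matrix.SpecialLinearGroup (Fin 2) F) // (χ : Matrix.SpecialLinearGroup (Fin 2) F → ℂ) 1 = c} ≠ 0 →
        ∃ χ : Cfsg.IrrCharacter (Matrix.SpecialLinearGroup (Fin 2) F), (χ : Matrix.SpecialLinearGroup (Fin 2) F → ℂ) 1 = c := by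
      intro c hc
      by_contra hne
      apply hc
      haveI : IsEmpty {χ : Cfsg.IrrCharacter (Matrix.SpecialLinearGroup (Fin 2) F) // (χ : Matrix.SpecialLinearGroup (Fin 2) F → ℂ) 1 = c} :=
        ⟨fun x => hne ⟨x.1, x.2⟩⟩
      exact Nat.card_of_isEmpty
    rintro (rfl | rfl | rfl | rfl)
    · obtain ⟨χ, hχ⟩ := ex 1 (by rw [c1]; exact one_ne_zero)
      exact ⟨χ, by rw [hχ]; simp⟩
    · obtain ⟨χ, hχ⟩ := ex ((Fintype.card F : ℂ) - 1) (by rw [c4]; omega)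
      exact ⟨χ, by rw [hχ, e2]⟩
    · exact ex _ (by rw [c2]; exact one_ne_zero)
    · obtain ⟨χ, hχ⟩ := ex ((Fintype.card F : ℂ) + 1) (by rw [c3]; omega)
      exact ⟨χ, by rw [hχ]; push_cast; ring⟩

theorem graph_even {F : Type*} [Field F] [Fintype F] [CharP F 2] (q : ℕ) (hq : Fintype.card F = q) (h4 : 4 ≤ q)
    {S : Type*} [Group S] (hD : charDegrees S = {1, q - 1, q, q + 1}) :
    Cfsg.degreePrimes S = {r : ℕ | r.Prime ∧ r ∣ q * (q ^ 2 - 1)} ∧
      ∀ r s : ℕ, (Cfsg.degreeGraph S).Adj r s ↔ (r ≠ s ∧ r.Prime ∧ s.Prime ∧ ((r ∣ q + 1 ∧ s ∣ q + 1) ∨ (r ∣ q - 1 ∧ s ∣ q - 1))) := by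
  have e : q ^ 2 - 1 = (q + 1) * (q - 1) := by rw [← Nat.sq_sub_sq]
  constructor
  · ext r
    show (r.Prime ∧ ∃ d ∈ charDegrees S, r ∣ d) ↔ (r.Prime ∧ r ∣ q * (q ^ 2 - 1))
    rw [hD, e]
    refine and_congr_right fun hr => ?_
    rw [hr.dvd_mul, hr.dvd_mul]
    constructor
    · rintro ⟨d, hd, hrd⟩
      simp only [Set.mem_insert_iff, Set.mem_singleton_iff] at hd
      rcases hd with rfl | rfl | rfl | rfl
      · exact absurd (Nat.dvd_one.1 hrd) hr.one_lt.ne'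
      · exact Or.inr (Or.inr hrd)
      · exact Or.inl hrd
      · exact Or.inr (Or.inl hrd)
    · rintro (h | h | h)
      · exact ⟨q, by simp, h⟩
      · exact ⟨q + 1, by simp, h⟩
      · exact ⟨q - 1, by simp, h⟩
  · intro r s
    show (r ≠ s ∧ r.Prime ∧ s.Prime ∧ ∃ d ∈ charDegrees S, r * s ∣ d) ↔ _
    rw [hD]
    refine and_congr_right fun hne => and_congr_right fun hr => and_congr_right fun hs => ?_
    constructor
    · rintro ⟨d, hd, hrd⟩
      simp only [Set.mem_insert_iff, Set.mem_singleton_iff] at hd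
      have h1 : r ∣ d := (Dvd.intro _ rfl).trans hrd
      have h2 : s ∣ d := (Dvd.intro_left _ rfl).trans hrd
      rcases hd with rfl | rfl | rfl | rfl
      · exact absurd (Nat.dvd_one.1 h1) hr.one_lt.ne'
      · exact Or.inr ⟨h1, h2⟩
      · exfalso
        obtain ⟨n, _, hn⟩ := FiniteField.card F 2
        rw [hn] at hq
        rw [← hq] at h1 h2
        have a1 := (Nat.prime_dvd_prime_iff_eq hr Nat.prime_two).1 (hr.dvd_of_dvd_pow h1)
        have a2 := (Nat.prime_dvd_prime_iff_eq hs Nat.prime_two).1 (hs.dvd_of_dvd_pow h2)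
        exact hne (a1.trans a2.symm)
      · exact Or.inl ⟨h1, h2⟩
    · have hcop := (Nat.coprime_primes hr hs).2 hne
      rintro (⟨h1, h2⟩ | ⟨h1, h2⟩)
      · exact ⟨q + 1, by simp, hcop.mul_dvd_of_dvd_of_dvd h1 h2⟩
      · exact ⟨q - 1, by simp, hcop.mul_dvd_of_dvd_of_dvd h1 h2⟩

theorem psl_equiv_even {F : Type*} [Field F] [Fintype F] [CharP F 2] :
    Nonempty (Matrix.SpecialLinearGroup (Fin 2) F ≃* Matrix.ProjectiveSpecialLinearGroup (Fin 2) F) := by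
  classical
  have h2 : (2 : F) = 0 := by exact_mod_cast CharP.cast_eq_zero F 2
  have hM := isSL_mSL (F := F)
  refine ⟨MulEquiv.ofBijective (QuotientGroup.mk' (Subgroup.center (Matrix.SpecialLinearGroup (Fin 2) F))) ⟨?_, QuotientGroup.mk'_surjective _⟩⟩
  rw [injective_iff_map_eq_one]
  intro x hx
  rw [QuotientGroup.mk'_apply, QuotientGroup.eq_one_iff] at hx
  have hs := (mSL (F := F)).Sc_of_center' hx
  have hd := hM x
  rw [MG.dt, hs.1, ← hs.2.2] at hd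
  have h1 : ((mSL (F := F)).m x 0 0 - 1) ^ 2 = 0 := by
    linear_combination hd + (1 - (mSL (F := F)).m x 0 0) * h2
  have h3 : (mSL (F := F)).m x 0 0 = 1 := sub_eq_zero.1 (pow_eq_zero_iff (two_ne_zero) |>.1 h1)
  exact (mSL (F := F)).ext (by rw [h3, MG.m_one00]) (by rw [hs.1, MG.m_one01]) (by rw [hs.2.1, MG.m_one10])
    (by rw [← hs.2.2, h3, MG.m_one11])

theorem stmt_4812 (F : Type*) [Field F] [Fintype F] [CharP F 2] (q : ℕ) (hq : Fintype.card F = q) (h4 : 4 ≤ q) {S : Type*} [Group S]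
    (hS : Nonempty (S ≃* Matrix.ProjectiveSpecialLinearGroup (Fin 2) F) ∨ Nonempty (S ≃* Matrix.SpecialLinearGroup (Fin 2) F)) :
    Cfsg.degreePrimes S = {r : ℕ | r.Prime ∧ r ∣ q * (q ^ 2 - 1)} ∧
      ∀ r s : ℕ, (Cfsg.degreeGraph S).Adj r s ↔ (r ≠ s ∧ r.Prime ∧ s.Prime ∧ ((r ∣ q + 1 ∧ s ∣ q + 1) ∨ (r ∣ q - 1 ∧ s ∣ q - 1))) := by
  refine graph_even (F := F) q hq h4 ?_
  have h1 := charDegrees_SL_even (F := F) (by rw [hq]; exact h4)
  rw [hq] at h1
  rcases hS with he | he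
  · obtain ⟨e⟩ := he
    obtain ⟨e'⟩ := psl_equiv_even (F := F)
    rw [charDegrees_equiv e, ← charDegrees_equiv e', h1]
  · obtain ⟨e⟩ := he
    rw [charDegrees_equiv e, h1]

end CfsgH6
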