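import Cfsg.Agent.H6.Sl35
import Cfsg.Agent.H6.Sl21
import Cfsg.Agent.H6.Sl19
set_option autoImplicit false

namespace CfsgH6
open Cfsg CfsgH4

theorem exists_pow4_ne {A : Type*} [CommGroup A] [Finite A] [IsCyclic A] (h : 4 < Nat.card A) : ∃ a : A, a ^ 4 ≠ 1 := by
  obtain ⟨g, hg⟩ := IsCyclic.exists_ofOrder_eq_natCard (α := A)
  refine ⟨g, fun h4 => ?_⟩
  have h1 := Nat.le_of_dvd (by norm_num) (orderOf_dvd_of_pow_eq_one h4)
  omega

namespace MG
variable {G : Type*} [Group G] {F : Type*} [Field F] (M : MG G F)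
variable [Fintype F] [DecidableEq F] [Fintype G]
variable (hM : M.IsSL) (hodd : Odd (Fintype.card F))

include hM in
theorem central_deg_add (hq : 5 < Fintype.card F) :
    ∃ χ : G → ℂ, IsIrrCharacter G χ ∧ χ 1 = (Fintype.card F : ℂ) + 1 ∧ ∀ z ∈ Subgroup.center G, χ z = χ 1 := by
  obtain ⟨a, ha⟩ := exists_pow4_ne (A := Fˣ) (by
    rw [Nat.card_eq_fintype_card, Fintype.card_units]; omega)
  have ha' : ((a : F) ^ 4) ≠ 1 := fun h => ha (Units.ext (by push_cast; exact h))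
  obtain ⟨γ, hγ⟩ := MulChar.exists_apply_ne_one_of_hasEnoughRootsOfUnity F ℂ ha'
  have h2 : (γ ^ 2) ^ 2 ≠ 1 := by
    intro h
    apply hγ
    rw [← pow_mul] at h
    have h3 : (γ ^ (2 * 2)) (a : F) = 1 := by rw [h, MulChar.one_apply a.isUnit]
    rw [map_pow, ← MulChar.pow_apply' γ (by norm_num) (a : F)]
    exact h3
  refine ⟨M.ps (γ ^ 2) 1, M.isIrr_ps_SL hM h2, M.ps_one _ _, ?_⟩
  intro z hz
  have hs := M.Sc_of_center' hz
  have hb := M.B_ne (g := z) hs.2.1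
  rw [M.ps_one, M.ps_scalar _ 1 hs.1 hs.2.1 hs.2.2, MulChar.one_apply hb.1.isUnit, MulChar.pow_apply' γ (by norm_num)]
  have h4 : M.m z 0 0 ^ 2 = 1 := by
    have hd := hM z
    rw [dt, hs.1, ← hs.2.2] at hd
    linear_combination hd
  rw [← map_pow, h4, map_one]; ring

include hM hodd in
theorem central_deg_sub (hq : 5 < Fintype.card F) :
    ∃ χ : G → ℂ, IsIrrCharacter G χ ∧ χ 1 = (Fintype.card F : ℂ) - 1 ∧ ∀ z ∈ Subgroup.center G, χ z = χ 1 := by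
  obtain ⟨g, hg⟩ := M.exists_ell hM
  have hcard := M.card_cent_ell_SL hM hodd hg
  have ht := ell_tr hodd hM hg
  have hcy := M.cyclic_cent hM ht
  have hC := comm_of_cyclic hcy
  set C := Subgroup.centralizer ({g} : Set G) with hCdef
  letI := IsCyclic.commGroup (α := C)
  haveI : IsCyclic C := hcy
  obtain ⟨c, hc⟩ := exists_pow4_ne (A := C) (by rw [hcard]; omega)
  obtain ⟨θ, hθ⟩ := CommGroup.exists_apply_ne_one_of_hasEnoughRootsOfUnity C ℂ hc
  let θ' : C →* ℂˣ := θ ^ 2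
  have hθ' : ∀ x, θ' x = θ x ^ 2 := fun x => rfl
  have hex : ∃ c : C, θ' c ^ 2 ≠ 1 := by
    refine ⟨c, fun h => hθ ?_⟩
    rw [hθ', ← pow_mul] at h
    rw [map_pow]; exact h
  have hng : θ' ⟨M.ng, M.ng_mem hM hodd hcard⟩ = 1 := by
    rw [hθ', ← map_pow]
    have h3 : (⟨M.ng, M.ng_mem hM hodd hcard⟩ : C) ^ 2 = 1 := Subtype.ext (by show M.ng ^ 2 = 1; rw [sq, ng_mul_ng])
    rw [h3, map_one]
  have hγ : (1 : MulChar F ℂ) (-1) = (θ' ⟨M.ng, M.ng_mem hM hodd hcard⟩ : ℂ) := by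
    rw [hng, MulChar.one_apply (by simp)]; rfl
  have hX1 := M.X_one hM hodd hcard θ' (γ := 1)
  refine ⟨M.X θ' 1, M.isIrr_X hM hodd hC hcard θ' hγ hex, hX1, ?_⟩
  intro z hz
  have hs := M.Sc_of_center' hz
  have hzC : z ∈ C := by
    rw [hCdef]; exact Subgroup.center_le_centralizer _ hz
  rw [M.X_Sc hM hodd hcard θ' hγ hzC hs, hX1]
  have h1 : θ' ⟨z, hzC⟩ = 1 := by
    rcases M.Sc_SL hM hs with h | h
    · subst h; exact map_one θ'
    · subst h; exact hng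
  rw [h1]; simp

end MG

end CfsgH6
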