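import Cfsg.Agent.H6.Sl36
set_option autoImplicit false

namespace CfsgH6
open Cfsg CfsgH4

theorem graph_odd {F : Type*} [Field F] [Fintype F] (t : ℕ) [Fact t.Prime] [CharP F t] (ht : t ≠ 2) (q : ℕ)
    (hq : Fintype.card F = q) (h5 : 5 < q) {S : Type*} [Group S]
    (hD : ∀ d ∈ charDegrees S, d = 1 ∨ d = q ∨ d = q + 1 ∨ d = q - 1 ∨ d = (q + 1) / 2 ∨ d = (q - 1) / 2)
    (hq0 : q ∈ charDegrees S) (hq1 : q + 1 ∈ charDegrees S) (hq2 : q - 1 ∈ charDegrees S) :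
    Cfsg.degreePrimes S = {r : ℕ | r.Prime ∧ r ∣ q * (q ^ 2 - 1)} ∧
      ∀ r s : ℕ, (Cfsg.degreeGraph S).Adj r s ↔ (r ≠ s ∧ r.Prime ∧ s.Prime ∧ r ∣ q ^ 2 - 1 ∧ s ∣ q ^ 2 - 1 ∧
        (r = 2 ∨ s = 2 ∨ (r ∣ q + 1 ∧ s ∣ q + 1) ∨ (r ∣ q - 1 ∧ s ∣ q - 1))) := by
  have e : q ^ 2 - 1 = (q + 1) * (q - 1) := by rw [← Nat.sq_sub_sq]
  obtain ⟨n, htp, hn⟩ := FiniteField.card F t
  have hqn : q = t ^ (n : ℕ) := by rw [← hq, hn]
  have hodd : Odd q := by rw [hqn]; exact (htp.odd_of_ne_two ht).pow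
  obtain ⟨k, hk⟩ := hodd
  have hp : (q + 1) / 2 ∣ q + 1 := ⟨2, by omega⟩
  have hm : (q - 1) / 2 ∣ q - 1 := ⟨2, by omega⟩
  have h2p : 2 ∣ q + 1 := ⟨k + 1, by omega⟩
  have h2m : 2 ∣ q - 1 := ⟨k, by omega⟩
  constructor
  · ext r
    show (r.Prime ∧ ∃ d ∈ charDegrees S, r ∣ d) ↔ (r.Prime ∧ r ∣ q * (q ^ 2 - 1))
    rw [e]
    refine and_congr_right fun hr => ?_
    rw [hr.dvd_mul, hr.dvd_mul]
    constructor
    · rintro ⟨d, hd, hrd⟩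
      rcases hD d hd with rfl | rfl | rfl | rfl | rfl | rfl
      · exact absurd (Nat.dvd_one.1 hrd) hr.one_lt.ne'
      · exact Or.inl hrd
      · exact Or.inr (Or.inl hrd)
      · exact Or.inr (Or.inr hrd)
      · exact Or.inr (Or.inl (hrd.trans hp))
      · exact Or.inr (Or.inr (hrd.trans hm))
    · rintro (h | h | h)
      · exact ⟨q, hq0, h⟩
      · exact ⟨q + 1, hq1, h⟩
      · exact ⟨q - 1, hq2, h⟩
  · intro r s
    show (r ≠ s ∧ r.Prime ∧ s.Prime ∧ ∃ d ∈ charDegrees S, r * s ∣ d) ↔ _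
    rw [e]
    refine and_congr_right fun hne => and_congr_right fun hr => and_congr_right fun hs => ?_
    constructor
    · rintro ⟨d, hd, hrd⟩
      have h1 : r ∣ d := (Dvd.intro _ rfl).trans hrd
      have h2 : s ∣ d := (Dvd.intro_left _ rfl).trans hrd
      have hplus : r ∣ q + 1 → s ∣ q + 1 → r ∣ (q + 1) * (q - 1) ∧ s ∣ (q + 1) * (q - 1) ∧
          (r = 2 ∨ s = 2 ∨ (r ∣ q + 1 ∧ s ∣ q + 1) ∨ (r ∣ q - 1 ∧ s ∣ q - 1)) := fun a b =>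
        ⟨a.mul_right _, b.mul_right _, Or.inr (Or.inr (Or.inl ⟨a, b⟩))⟩
      have hminus : r ∣ q - 1 → s ∣ q - 1 → r ∣ (q + 1) * (q - 1) ∧ s ∣ (q + 1) * (q - 1) ∧
          (r = 2 ∨ s = 2 ∨ (r ∣ q + 1 ∧ s ∣ q + 1) ∨ (r ∣ q - 1 ∧ s ∣ q - 1)) := fun a b =>
        ⟨a.mul_left _, b.mul_left _, Or.inr (Or.inr (Or.inr ⟨a, b⟩))⟩
      rcases hD d hd with rfl | rfl | rfl | rfl | rfl | rfl
      · exact absurd (Nat.dvd_one.1 h1) hr.one_lt.ne'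
      · exfalso
        rw [hqn] at h1 h2
        have a1 := (Nat.prime_dvd_prime_iff_eq hr htp).1 (hr.dvd_of_dvd_pow h1)
        have a2 := (Nat.prime_dvd_prime_iff_eq hs htp).1 (hs.dvd_of_dvd_pow h2)
        exact hne (a1.trans a2.symm)
      · exact hplus h1 h2
      · exact hminus h1 h2
      · exact hplus (h1.trans hp) (h2.trans hp)
      · exact hminus (h1.trans hm) (h2.trans hm)
    · have hcop := (Nat.coprime_primes hr hs).2 hne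
      have P : r ∣ q + 1 → s ∣ q + 1 → ∃ d ∈ charDegrees S, r * s ∣ d := fun a b =>
        ⟨q + 1, hq1, hcop.mul_dvd_of_dvd_of_dvd a b⟩
      have Q : r ∣ q - 1 → s ∣ q - 1 → ∃ d ∈ charDegrees S, r * s ∣ d := fun a b =>
        ⟨q - 1, hq2, hcop.mul_dvd_of_dvd_of_dvd a b⟩
      rintro ⟨h1, h2, h3⟩
      rw [hr.dvd_mul] at h1
      rw [hs.dvd_mul] at h2
      rcases h3 with rfl | rfl | ⟨a, b⟩ | ⟨a, b⟩
      · rcases h2 with h | h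
        · exact P h2p h
        · exact Q h2m h
      · rcases h1 with h | h
        · exact P h h2p
        · exact Q h h2m
      · exact P a b
      · exact Q a b

theorem stmt_4774 (F : Type*) [Field F] [Fintype F] (t : ℕ) [Fact t.Prime] [CharP F t] (ht : t ≠ 2) (q : ℕ) (hq : Fintype.card F = q)
    (h5 : 5 < q) {S : Type*} [Group S]
    (hS : Nonempty (S ≃* Matrix.ProjectiveSpecialLinearGroup (Fin 2) F) ∨ Nonempty (S ≃* Matrix.SpecialLinearGroup (Fin 2) F)) :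
    Cfsg.degreePrimes S = {r : ℕ | r.Prime ∧ r ∣ q * (q ^ 2 - 1)} ∧
      ∀ r s : ℕ, (Cfsg.degreeGraph S).Adj r s ↔ (r ≠ s ∧ r.Prime ∧ s.Prime ∧ r ∣ q ^ 2 - 1 ∧ s ∣ q ^ 2 - 1 ∧
        (r = 2 ∨ s = 2 ∨ (r ∣ q + 1 ∧ s ∣ q + 1) ∨ (r ∣ q - 1 ∧ s ∣ q - 1))) := by
  classical
  obtain ⟨n, htp, hn⟩ := FiniteField.card F t
  have hodd : Odd (Fintype.card F) := by rw [hn]; exact (htp.odd_of_ne_two ht).pow
  obtain ⟨e, he⟩ := exists_nonsq (F := F) hodd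
  have hM := isSL_mSL (F := F)
  set M := mSL (F := F) with hMdef
  have hcl : ∀ χ : Matrix.SpecialLinearGroup (Fin 2) F → ℂ, IsIrrCharacter _ χ → ∀ d : ℕ, χ 1 = (d : ℂ) →
      d = 1 ∨ d = q ∨ d = q + 1 ∨ d = q - 1 ∨ d = (q + 1) / 2 ∨ d = (q - 1) / 2 := by
    intro χ hχ d hd
    rcases M.irr_SL_odd he hodd hM hχ with ⟨_, b⟩ | ⟨_, b⟩ | ⟨_, b⟩ | ⟨_, b⟩ | ⟨_, b⟩ | ⟨_, b⟩ <;>
      have h := Nat.cast_injective (hd.symm.trans b) <;> (try rw [hq] at h) <;> tauto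
  have c0 : ∃ χ : Matrix.SpecialLinearGroup (Fin 2) F → ℂ, IsIrrCharacter _ χ ∧ χ 1 = (q : ℂ) ∧
      ∀ z ∈ Subgroup.center (Matrix.SpecialLinearGroup (Fin 2) F), χ z = χ 1 :=
    ⟨M.sta 1, M.isIrr_sta_SL hM, by rw [M.sta_one, hq], fun z hz => M.sta_center hM hz⟩
  have c1 : ∃ χ : Matrix.SpecialLinearGroup (Fin 2) F → ℂ, IsIrrCharacter _ χ ∧ χ 1 = ((q + 1 : ℕ) : ℂ) ∧
      ∀ z ∈ Subgroup.center (Matrix.SpecialLinearGroup (Fin 2) F), χ z = χ 1 := by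
    obtain ⟨χ, a, b, c⟩ := M.central_deg_add hM (by rw [hq]; exact h5)
    exact ⟨χ, a, by rw [b, hq]; push_cast; ring, c⟩
  have c2 : ∃ χ : Matrix.SpecialLinearGroup (Fin 2) F → ℂ, IsIrrCharacter _ χ ∧ χ 1 = ((q - 1 : ℕ) : ℂ) ∧
      ∀ z ∈ Subgroup.center (Matrix.SpecialLinearGroup (Fin 2) F), χ z = χ 1 := by
    obtain ⟨χ, a, b, c⟩ := M.central_deg_sub hM hodd (by rw [hq]; exact h5)
    exact ⟨χ, a, by rw [b, ← MG.sub_cast, hq], c⟩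
  have low : ∀ d : ℕ, (∃ χ : Matrix.SpecialLinearGroup (Fin 2) F → ℂ, IsIrrCharacter _ χ ∧ χ 1 = (d : ℂ) ∧
      ∀ z ∈ Subgroup.center (Matrix.SpecialLinearGroup (Fin 2) F), χ z = χ 1) →
      d ∈ charDegrees (Matrix.SpecialLinearGroup (Fin 2) F) ∧ d ∈ charDegrees (Matrix.ProjectiveSpecialLinearGroup (Fin 2) F) := by
    rintro d ⟨χ, a, b, c⟩
    refine ⟨mem_charDegrees.2 ⟨⟨χ, a⟩, b⟩, ?_⟩
    obtain ⟨ψ, hψ, hψ2⟩ := exists_irr_of_ker (Subgroup.center (Matrix.SpecialLinearGroup (Fin 2) F)) a c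
    refine mem_charDegrees.2 ⟨⟨ψ, hψ⟩, ?_⟩
    have h1 := congrFun hψ2 1
    exact h1.symm.trans b
  have upS : ∀ d ∈ charDegrees (Matrix.SpecialLinearGroup (Fin 2) F),
      d = 1 ∨ d = q ∨ d = q + 1 ∨ d = q - 1 ∨ d = (q + 1) / 2 ∨ d = (q - 1) / 2 := by
    intro d hd
    obtain ⟨χ, hχ⟩ := mem_charDegrees.1 hd
    exact hcl χ χ.2 d hχ
  have upP : ∀ d ∈ charDegrees (Matrix.ProjectiveSpecialLinearGroup (Fin 2) F),
      d = 1 ∨ d = q ∨ d = q + 1 ∨ d = q - 1 ∨ d = (q + 1) / 2 ∨ d = (q - 1) / 2 := by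
    intro d hd
    obtain ⟨χ, hχ⟩ := mem_charDegrees.1 hd
    exact hcl _ (isIrr_inflate (Subgroup.center (Matrix.SpecialLinearGroup (Fin 2) F)) χ.2) d hχ
  rcases hS with hE | hE
  · obtain ⟨f⟩ := hE
    have h1 := charDegrees_equiv f
    exact graph_odd (F := F) t ht q hq h5 (by rw [h1]; exact upP) (by rw [h1]; exact (low _ c0).2)
      (by rw [h1]; exact (low _ c1).2) (by rw [h1]; exact (low _ c2).2)
  · obtain ⟨f⟩ := hE
    have h1 := charDegrees_equiv f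
    exact graph_odd (F := F) t ht q hq h5 (by rw [h1]; exact upS) (by rw [h1]; exact (low _ c0).1)
      (by rw [h1]; exact (low _ c1).1) (by rw [h1]; exact (low _ c2).1)

end CfsgH6
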