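import Cfsg.Prelude.Def_Classical
import Mathlib
set_option autoImplicit false

namespace CfsgH6
open Matrix Cfsg

namespace I3
variable {F : Type*} [Field F] {n l : ℕ}

theorem low (A : Matrix (Fin n) (Fin n) F) (f g : Fin l → Fin n) (h : ∀ i j, A (f i) (g j) = if i = j then 1 else 0) :
    l ≤ A.rank := by
  have h' : (1 : Matrix (Fin n) (Fin n) F).submatrix f id * A * (1 : Matrix (Fin n) (Fin n) F).submatrix id g = 1 := by
    have e1 : (1 : Matrix (Fin n) (Fin n) F).submatrix f id * A = A.submatrix f id := by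
      ext i j
      rw [Matrix.mul_apply]
      simp only [Matrix.submatrix_apply, id, Matrix.one_apply, ite_mul, one_mul, zero_mul, Finset.sum_ite_eq, Finset.mem_univ, if_true]
    rw [e1]
    ext i j
    rw [Matrix.mul_apply]
    simp only [Matrix.submatrix_apply, id, Matrix.one_apply, mul_ite, mul_one, mul_zero, Finset.sum_ite_eq', Finset.mem_univ, if_true]
    exact h i j
  have h1 : ((1 : Matrix (Fin l) (Fin l) F)).rank = l := by rw [Matrix.rank_one, Fintype.card_fin]
  calc l = (1 : Matrix (Fin l) (Fin l) F).rank := h1.symm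
    _ = _ := by rw [← h']
    _ ≤ _ := Matrix.rank_mul_le_left _ _
    _ ≤ _ := Matrix.rank_mul_le_right _ _

theorem up (A : Matrix (Fin n) (Fin n) F) (Q : Matrix (Fin n) (Fin l) F) (R : Matrix (Fin l) (Fin n) F) (h : A = Q * R) :
    A.rank ≤ l := by
  rw [h]
  refine (Matrix.rank_mul_le_left _ _).trans ?_
  have := Matrix.rank_le_card_width Q
  simpa using this

def sf (n l : ℕ) (i : ℕ) : ℕ := if i < l then i + (n - l) else if n - l ≤ i then i - (n - l) else i

theorem sf_lt (h2 : 2 * l ≤ n) {i : ℕ} (hi : i < n) : sf n l i < n := by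
  unfold sf; split_ifs <;> omega

theorem sf_sf (h2 : 2 * l ≤ n) {i : ℕ} (hi : i < n) : sf n l (sf n l i) = i := by
  unfold sf; split_ifs <;> omega

def sg (h2 : 2 * l ≤ n) : Equiv.Perm (Fin n) where
  toFun i := ⟨sf n l i, sf_lt h2 i.2⟩
  invFun i := ⟨sf n l i, sf_lt h2 i.2⟩
  left_inv i := Fin.ext (sf_sf h2 i.2)
  right_inv i := Fin.ext (sf_sf h2 i.2)

theorem sg_sg (h2 : 2 * l ≤ n) (i : Fin n) : sg h2 (sg h2 i) = i := Fin.ext (sf_sf h2 i.2)

def PP (F : Type*) [Field F] (n l : ℕ) : Matrix (Fin n) (Fin n) F :=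
  Matrix.of (fun i j : Fin n => if (j.val < l ∧ i.val = j.val + (n - l)) ∨ (i.val < l ∧ j.val = i.val + (n - l)) ∨ (i = j ∧ l ≤ i.val ∧ i.val < n - l) then (1 : F) else 0)

theorem PP_apply (h2 : 2 * l ≤ n) (i j : Fin n) : PP F n l i j = if sg h2 i = j then (1 : F) else 0 := by
  show (if (j.val < l ∧ i.val = j.val + (n - l)) ∨ (i.val < l ∧ j.val = i.val + (n - l)) ∨ (i = j ∧ l ≤ i.val ∧ i.val < n - l) then (1 : F) else 0) = _
  congr 1
  apply propext
  rw [Fin.ext_iff, Fin.ext_iff]
  show _ ↔ sf n l i = j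
  have := i.2
  have := j.2
  unfold sf; split_ifs <;> omega

theorem PP_mulVec (h2 : 2 * l ≤ n) (u : Fin n → F) (i : Fin n) : (PP F n l *ᵥ u) i = u (sg h2 i) := by
  rw [Matrix.mulVec, dotProduct]
  simp only [PP_apply h2, ite_mul, one_mul, zero_mul, Finset.sum_ite_eq, Finset.mem_univ, if_true]

theorem PP_sq (h2 : 2 * l ≤ n) : PP F n l * PP F n l = 1 := by
  ext i j
  rw [Matrix.mul_apply]
  simp only [PP_apply h2, ite_mul, one_mul, zero_mul, Finset.sum_ite_eq, Finset.mem_univ, if_true]
  rw [sg_sg, Matrix.one_apply]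

theorem rank_PP (h2 : 2 * l ≤ n) : (PP F n l - 1).rank = l := by
  have hA : ∀ i j, (PP F n l - 1) i j = (if sg h2 i = j then (1 : F) else 0) - (if i = j then 1 else 0) := by
    intro i j
    rw [Matrix.sub_apply, PP_apply h2, Matrix.one_apply]
  apply le_antisymm
  · refine up _ (Matrix.of fun (i : Fin n) (j : Fin l) => (if i.val = j.val then (1 : F) else 0) - (if i.val = j.val + (n - l) then 1 else 0))
      (Matrix.of fun (j : Fin l) (k : Fin n) => (PP F n l - 1) ⟨j.val, by omega⟩ k) ?_
    ext i k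
    rw [Matrix.mul_apply]
    simp only [Matrix.of_apply]
    by_cases h1 : i.val < l
    · rw [Finset.sum_eq_single ⟨i.val, h1⟩]
      · rw [if_pos rfl, if_neg (by show ¬ (i.val = i.val + (n - l)); omega), sub_zero, one_mul]
      · intro j _ hj
        have h3 : ¬ i.val = j.val := fun h => hj (Fin.ext h.symm)
        rw [if_neg h3, if_neg (by omega), sub_zero, zero_mul]
      · intro h; exact absurd (Finset.mem_univ _) h
    · by_cases h3 : n - l ≤ i.val
      · have hlt := i.2
        rw [Finset.sum_eq_single ⟨i.val - (n - l), by omega⟩]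
        · rw [if_neg (by show ¬ (i.val = i.val - (n - l)); omega), if_pos (by show i.val = i.val - (n - l) + (n - l); omega), zero_sub, neg_one_mul,
            hA, hA]
          have e1 : sg h2 i = ⟨i.val - (n - l), by omega⟩ := by
            apply Fin.ext
            show sf n l i = i.val - (n - l)
            unfold sf; rw [if_neg h1, if_pos h3]
          rw [← e1, sg_sg]; ring
        · intro j _ hj
          have h4 : ¬ i.val = j.val + (n - l) := fun h => hj (Fin.ext (by show j.val = i.val - (n - l); omega))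
          rw [if_neg (by omega), if_neg h4, sub_zero, zero_mul]
        · intro h; exact absurd (Finset.mem_univ _) h
      · have e1 : sg h2 i = i := by
          apply Fin.ext
          show sf n l i = i.val
          unfold sf; rw [if_neg h1, if_neg h3]
        rw [hA, e1, sub_self]
        symm
        refine Finset.sum_eq_zero fun j _ => ?_
        rw [if_neg (by omega), if_neg (by omega), sub_zero, zero_mul]
  · refine low _ (fun j => ⟨j.val, by omega⟩) (fun j => ⟨j.val + (n - l), by omega⟩) ?_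
    intro i j
    have e1 : sg h2 ⟨i.val, by omega⟩ = ⟨i.val + (n - l), by omega⟩ := by
      apply Fin.ext
      show sf n l i.val = i.val + (n - l)
      unfold sf; rw [if_pos i.2]
    rw [hA, e1]
    simp only [Fin.ext_iff]
    rw [if_neg (c := i.val = j.val + (n - l)) (by omega), sub_zero]
    congr 1
    apply propext
    omega

theorem main [CharP F 2] {q : ℕ} (h1 : 1 ≤ l) (h2 : 2 * l ≤ n) :
    ∃ a : ↥(Cfsg.SU n F q), ((a : Matrix.SpecialLinearGroup (Fin n) F) : Matrix (Fin n) (Fin n) F) = PP F n l ∧ orderOf a = 2 ∧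
      ((((a : Matrix.SpecialLinearGroup (Fin n) F) : Matrix (Fin n) (Fin n) F)) - 1).rank = l := by
  have hc : (2 : F) = 0 := by exact_mod_cast CharP.cast_eq_zero F 2
  have hd : (PP F n l).det = 1 := by
    have h3 : (PP F n l).det * (PP F n l).det = 1 := by rw [← Matrix.det_mul, PP_sq h2, Matrix.det_one]
    have h4 : ((PP F n l).det - 1) ^ 2 = 0 := by
      linear_combination h3 + (1 - (PP F n l).det) * hc
    exact sub_eq_zero.1 (pow_eq_zero_iff two_ne_zero |>.1 h4)
  let a : Matrix.SpecialLinearGroup (Fin n) F := ⟨PP F n l, hd⟩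
  have ha : a ∈ Cfsg.SU n F q := by
    intro u v
    show hermForm n F q (PP F n l *ᵥ u) (PP F n l *ᵥ v) = hermForm n F q u v
    unfold hermForm
    simp only [PP_mulVec h2]
    exact Equiv.sum_comp (sg h2) (fun i => u i * v i ^ q)
  refine ⟨⟨a, ha⟩, rfl, ?_, rank_PP h2⟩
  apply orderOf_eq_prime
  · rw [sq]
    exact Subtype.ext (Subtype.ext (PP_sq h2))
  · intro h
    have h3 : PP F n l = 1 := congrArg (fun x : ↥(Cfsg.SU n F q) => ((x : Matrix.SpecialLinearGroup (Fin n) F) : Matrix (Fin n) (Fin n) F)) h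
    have h5 := rank_PP (F := F) h2
    rw [h3, sub_self, Matrix.rank_zero] at h5
    omega

end I3

end CfsgH6
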